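import Cfsg.Agent.Lib.Golay.Facts
import Cfsg.Agent.Lib.Steiner.Transfer
import Cfsg.Prelude.Def_Spor_Conway

/-!
# The lattice from the code: basic structure

The set `leechSet` in normal form: `x` has a parity `m` and a code word `A`, with
`x i ≡ m + 2 [i ∈ A] (mod 4)` and `∑ x ≡ 4 m (mod 8)`.
-/

set_option autoImplicit false

namespace Cfsg.Agent.Lib.Leech

open Cfsg Cfsg.Agent.Lib.Golay

/-- The supports of the words of the code. -/
abbrev CS : Set (Finset GolayPt) := supports (golayCode : Set (GolayPt → ZMod 2))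

theorem CS_empty : (∅ : Finset GolayPt) ∈ CS := Spor.empty_mem_supports_golayCode

theorem CS_univ : (Finset.univ : Finset GolayPt) ∈ CS := Spor.univ_mem_supports_golayCode

theorem CS_symmDiff {s t : Finset GolayPt} (hs : s ∈ CS) (ht : t ∈ CS) : symmDiff s t ∈ CS := by
  obtain ⟨v, hv, rfl⟩ := hs
  obtain ⟨w, hw, rfl⟩ := ht
  exact ⟨v + w, add_mem hv hw, support_add v w⟩

theorem CS_compl {s : Finset GolayPt} (hs : s ∈ CS) : sᶜ ∈ CS := by
  have h := CS_symmDiff hs CS_univ
  have h2 : symmDiff s Finset.univ = sᶜ := by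
    ext x
    simp [Finset.mem_symmDiff]
  rwa [h2] at h

theorem CS_card {s : Finset GolayPt} (hs : s ∈ CS) :
    s.card = 0 ∨ s.card = 8 ∨ s.card = 12 ∨ s.card = 16 ∨ s.card = 24 := by
  obtain ⟨v, hv, rfl⟩ := hs
  exact weight_cases hv

theorem CS_four_dvd {s : Finset GolayPt} (hs : s ∈ CS) : 4 ∣ s.card := by
  rcases CS_card hs with h | h | h | h | h <;> rw [h] <;> norm_num

theorem CS_inter_even {s t : Finset GolayPt} (hs : s ∈ CS) (ht : t ∈ CS) : 2 ∣ (s ∩ t).card := by
  have h1 := CS_four_dvd (CS_symmDiff hs ht)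
  have h2 := CS_four_dvd hs
  have h3 := CS_four_dvd ht
  have h4 := card_symmDiff_add s t
  omega

/-- The indicator of a finset with values in the integers. -/
def ind (A : Finset GolayPt) (i : GolayPt) : ℤ := if i ∈ A then 1 else 0

theorem ind_cases (A : Finset GolayPt) (i : GolayPt) : ind A i = 0 ∨ ind A i = 1 := by
  unfold ind
  split_ifs <;> simp

/-- The data of a vector of the set. -/
def IsData (x : GolayPt → ℤ) (m : ℤ) (A : Finset GolayPt) : Prop :=
  A ∈ CS ∧ (∀ i, x i % 4 = (m + 2 * ind A i) % 4) ∧ (∑ i, x i) % 8 = (4 * m) % 8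

theorem leech_of_data {x : GolayPt → ℤ} {m : ℤ} {A : Finset GolayPt} (h : IsData x m A) :
    x ∈ leechSet := by
  obtain ⟨hA, hx, hs⟩ := h
  refine ⟨m, fun i => ?_, hs, fun k => ?_⟩
  · have := hx i
    have h2 := ind_cases A i
    show x i % 2 = m % 2
    omega
  · by_cases h1 : (k - m) % 4 = 2
    · have : (Finset.univ.filter fun i => x i ≡ k [ZMOD 4]) = A := by
        ext i
        simp only [Finset.mem_filter, Finset.mem_univ, true_and]
        unfold Int.ModEq
        have := hx i
        unfold ind at this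
        split_ifs at this with hi
        · simp only [hi, iff_true]
          omega
        · simp only [hi, iff_false]
          omega
      rw [this]
      exact hA
    · by_cases h2 : (k - m) % 4 = 0
      · have : (Finset.univ.filter fun i => x i ≡ k [ZMOD 4]) = Aᶜ := by
          ext i
          simp only [Finset.mem_filter, Finset.mem_univ, true_and, Finset.mem_compl]
          unfold Int.ModEq
          have := hx i
          unfold ind at this
          split_ifs at this with hi
          · simp only [hi, not_true, iff_false]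
            omega
          · simp only [hi, not_false_iff, iff_true]
            omega
        rw [this]
        exact CS_compl hA
      · have : (Finset.univ.filter fun i => x i ≡ k [ZMOD 4]) = ∅ := by
          ext i
          simp only [Finset.mem_filter, Finset.mem_univ, true_and, Finset.notMem_empty,
            iff_false]
          unfold Int.ModEq
          have := hx i
          have h3 := ind_cases A i
          omega
        rw [this]
        exact CS_empty

/-- The normal form of a vector of the set. -/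
theorem data_of_leech {x : GolayPt → ℤ} (h : x ∈ leechSet) :
    ∃ m A, (m = 0 ∨ m = 1) ∧ IsData x m A := by
  obtain ⟨m, hm, hs, hk⟩ := h
  have hm2 : m % 2 = 0 ∨ m % 2 = 1 := by omega
  refine ⟨m % 2, Finset.univ.filter fun i => x i ≡ (m % 2 + 2) [ZMOD 4], hm2, hk _, fun i => ?_, ?_⟩
  · have h1 : x i % 2 = m % 2 := hm i
    simp only [ind, Finset.mem_filter, Finset.mem_univ, true_and]
    unfold Int.ModEq
    split_ifs with h2
    · omega
    · omega
  · have h1 : (∑ i, x i) % 8 = (4 * m) % 8 := hs
    omega

/-- The set as a subgroup. -/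
def leechSub : AddSubgroup (GolayPt → ℤ) where
  carrier := leechSet
  zero_mem' := by
    apply leech_of_data (m := 0) (A := ∅)
    refine ⟨CS_empty, fun i => ?_, by simp⟩
    simp [ind]
  add_mem' := by
    intro x y hx hy
    obtain ⟨m, A, -, hA, hx, hs⟩ := data_of_leech hx
    obtain ⟨n, B, -, hB, hy, ht⟩ := data_of_leech hy
    apply leech_of_data (m := m + n) (A := symmDiff A B)
    refine ⟨CS_symmDiff hA hB, fun i => ?_, ?_⟩
    · have h1 := hx i
      have h2 := hy i
      simp only [Pi.add_apply]
      simp only [ind, Finset.mem_symmDiff] at h1 h2 ⊢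
      by_cases h3 : i ∈ A <;> by_cases h4 : i ∈ B <;> simp only [h3, h4, if_true, if_false, not_true, not_false_iff, and_self, and_true, and_false, or_false, false_or, true_and, false_and, or_self] at h1 h2 ⊢ <;> omega
    · simp only [Pi.add_apply, Finset.sum_add_distrib]
      omega
  neg_mem' := by
    intro x hx
    obtain ⟨m, A, -, hA, hx, hs⟩ := data_of_leech hx
    apply leech_of_data (m := -m) (A := A)
    refine ⟨hA, fun i => ?_, ?_⟩
    · have h1 := hx i
      have h2 := ind_cases A i
      simp only [Pi.neg_apply]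
      rcases h2 with h2 | h2 <;> rw [h2] at h1 ⊢ <;> omega
    · simp only [Pi.neg_apply, Finset.sum_neg_distrib]
      omega

theorem coe_leechSub : (leechSub : Set (GolayPt → ℤ)) = leechSet := rfl

theorem leechLattice_eq : leechLattice = leechSub := by
  rw [leechLattice, ← coe_leechSub, AddSubgroup.closure_eq]

theorem mem_leechLattice {x : GolayPt → ℤ} : x ∈ leechLattice ↔ x ∈ leechSet := by
  rw [leechLattice_eq]
  rfl

/-- Coordinate permutations from the automorphism group. -/
theorem comp_mem {σ : Equiv.Perm GolayPt} (hσ : σ ∈ M24) {x : GolayPt → ℤ} (hx : x ∈ leechSet) :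
    (fun i => x (σ i)) ∈ leechSet := by
  obtain ⟨m, A, -, hA, hx, hs⟩ := data_of_leech hx
  apply leech_of_data (m := m) (A := A.image (⇑σ⁻¹))
  refine ⟨Cfsg.Agent.Lib.Steiner.image_mem_of_aut (M24.inv_mem hσ) hA, fun i => ?_, ?_⟩
  · have h1 := hx (σ i)
    have h2 : ind (A.image (⇑σ⁻¹)) i = ind A (σ i) := by
      unfold ind
      have : i ∈ A.image (⇑σ⁻¹) ↔ σ i ∈ A := by
        simp only [Finset.mem_image]
        constructor
        · rintro ⟨a, ha, rfl⟩
          simpa using ha
        · intro h
          exact ⟨σ i, h, by simp⟩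
      simp only [this]
    rw [h2]
    exact h1
  · rw [Equiv.sum_comp σ x]
    exact hs

/-- Sign changes on the code words. -/
theorem sign_mem {c : Finset GolayPt} (hc : c ∈ CS) {x : GolayPt → ℤ} (hx : x ∈ leechSet) :
    (fun i => if i ∈ c then -x i else x i) ∈ leechSet := by
  obtain ⟨m, A, hm, hA, hx, hs⟩ := data_of_leech hx
  have hsum : (4 : ℤ) ∣ ∑ i ∈ c, x i := by
    have h1 : ∀ i ∈ c, (4 : ℤ) ∣ x i - (m + 2 * ind A i) := by
      intro i _
      have := hx i
      omega
    have h2 := Finset.dvd_sum h1
    have h3 : ∑ i ∈ c, (x i - (m + 2 * ind A i)) = ∑ i ∈ c, x i - (c.card * m + 2 * (c ∩ A).card) := by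
      have h3a : ∑ i ∈ c, ind A i = ((c ∩ A).card : ℤ) := by
        simp only [ind]
        rw [Finset.sum_ite_mem]
        simp
      rw [Finset.sum_sub_distrib, Finset.sum_add_distrib, Finset.sum_const, ← Finset.mul_sum, h3a]
      simp
    rw [h3] at h2
    have h4 : (4 : ℤ) ∣ (c.card : ℤ) := by exact_mod_cast CS_four_dvd hc
    have h5 : (2 : ℤ) ∣ ((c ∩ A).card : ℤ) := by exact_mod_cast CS_inter_even hc hA
    have h6 : (4 : ℤ) ∣ (c.card : ℤ) * m + 2 * ((c ∩ A).card : ℤ) :=
      dvd_add (Dvd.dvd.mul_right h4 m) (by obtain ⟨t, ht⟩ := h5; exact ⟨t, by rw [ht]; ring⟩)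
    exact (dvd_sub_left h6).1 h2
  have hsum2 : ∑ i, (if i ∈ c then -x i else x i) = ∑ i, x i - 2 * ∑ i ∈ c, x i := by
    have h1 : ∀ i, (if i ∈ c then -x i else x i) = x i - 2 * (if i ∈ c then x i else 0) := by
      intro i
      split_ifs <;> ring
    simp_rw [h1]
    rw [Finset.sum_sub_distrib, ← Finset.mul_sum, Finset.sum_ite_mem]
    simp
  rcases hm with rfl | rfl
  · apply leech_of_data (m := 0) (A := A)
    refine ⟨hA, fun i => ?_, ?_⟩
    · have h1 := hx i
      have h2 := ind_cases A i
      show (if i ∈ c then -x i else x i) % 4 = _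
      split_ifs
      · rcases h2 with h2 | h2 <;> rw [h2] at h1 ⊢ <;> omega
      · exact h1
    · rw [hsum2]
      omega
  · apply leech_of_data (m := 1) (A := symmDiff A c)
    refine ⟨CS_symmDiff hA hc, fun i => ?_, ?_⟩
    · have h1 := hx i
      show (if i ∈ c then -x i else x i) % 4 = _
      simp only [ind, Finset.mem_symmDiff] at h1 ⊢
      by_cases h3 : i ∈ A <;> by_cases h4 : i ∈ c <;> simp only [h3, h4, if_true, if_false, not_true, not_false_iff, and_self, and_true, and_false, or_false, false_or, true_and, false_and, or_self] at h1 ⊢ <;> omega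
    · rw [hsum2]
      omega

/-- Squared lengths are divisible by 16. -/
theorem sq_dvd_aux {x : GolayPt → ℤ} (hx : x ∈ leechSet) : (16 : ℤ) ∣ sqNorm x := by
  obtain ⟨m, A, hm, hA, hx, hs⟩ := data_of_leech hx
  have h4A : (4 : ℤ) ∣ (A.card : ℤ) := by exact_mod_cast CS_four_dvd hA
  have hsumind : ∑ i, ind A i = A.card := by
    simp only [ind]
    rw [Finset.sum_ite_mem]
    simp
  rcases hm with rfl | rfl
  · have h1 : ∀ i ∈ (Finset.univ : Finset GolayPt), (16 : ℤ) ∣ x i ^ 2 - 4 * ind A i := by
      intro i _
      have h1 := hx i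
      obtain ⟨q, hq⟩ : (4 : ℤ) ∣ x i - 2 * ind A i := by omega
      have h2 : x i = 4 * q + 2 * ind A i := by linarith
      rw [h2]
      rcases ind_cases A i with h3 | h3 <;> rw [h3]
      · exact ⟨q ^ 2, by ring⟩
      · exact ⟨q ^ 2 + q, by ring⟩
    have h2 := Finset.dvd_sum h1
    rw [Finset.sum_sub_distrib, ← Finset.mul_sum, hsumind] at h2
    have h3 : (16 : ℤ) ∣ 4 * (A.card : ℤ) := by
      obtain ⟨t, ht⟩ := h4A
      exact ⟨t, by rw [ht]; ring⟩
    exact (dvd_sub_left h3).1 h2
  · have h1 : ∀ i ∈ (Finset.univ : Finset GolayPt), (16 : ℤ) ∣ x i ^ 2 - (2 * x i - 1 + 4 * ind A i) := by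
      intro i _
      have h1 := hx i
      obtain ⟨q, hq⟩ : (4 : ℤ) ∣ x i - (1 + 2 * ind A i) := by omega
      have h2 : x i = 4 * q + 1 + 2 * ind A i := by linarith
      rw [h2]
      rcases ind_cases A i with h3 | h3 <;> rw [h3]
      · exact ⟨q ^ 2, by ring⟩
      · exact ⟨q ^ 2 + q, by ring⟩
    have h2 := Finset.dvd_sum h1
    rw [Finset.sum_sub_distrib, Finset.sum_add_distrib, Finset.sum_sub_distrib, ← Finset.mul_sum,
      ← Finset.mul_sum, hsumind] at h2
    simp only [Finset.sum_const, Finset.card_univ] at h2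
    have hcard : Fintype.card GolayPt = 24 := by decide
    rw [hcard] at h2
    obtain ⟨t, ht⟩ := h4A
    have h3 : (16 : ℤ) ∣ 2 * ∑ i, x i - (24 : ℕ) • (1 : ℤ) + 4 * (A.card : ℤ) := by
      rw [ht]
      simp only [nsmul_eq_mul, Nat.cast_ofNat, mul_one]
      omega
    exact (dvd_sub_left h3).1 h2

/-- Nonzero vectors have squared length at least 32. -/
theorem sq_ge_aux {x : GolayPt → ℤ} (hx : x ∈ leechSet) (h0 : x ≠ 0) : 32 ≤ sqNorm x := by
  have h16 := sq_dvd_aux hx
  have hnn : ∀ i, 0 ≤ x i ^ 2 := fun i => sq_nonneg _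
  obtain ⟨m, A, hm, hA, hx, hs⟩ := data_of_leech hx
  have hsq : sqNorm x = ∑ i, x i ^ 2 := rfl
  rcases hm with rfl | rfl
  · rcases Finset.eq_empty_or_nonempty A with rfl | hne
    · -- all coordinates divisible by 4
      have h1 : ∀ i, (4 : ℤ) ∣ x i := by
        intro i
        have := hx i
        simp only [ind, Finset.notMem_empty, if_false] at this
        omega
      choose b hb using h1
      have h2 : sqNorm x = 16 * ∑ i, b i ^ 2 := by
        rw [hsq, Finset.mul_sum]
        apply Finset.sum_congr rfl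
        intro i _
        rw [hb i]
        ring
      have h3 : (∑ i, x i) = 4 * ∑ i, b i := by
        rw [Finset.mul_sum]
        apply Finset.sum_congr rfl
        intro i _
        exact hb i
      have h4 : (2 : ℤ) ∣ ∑ i, b i := by
        rw [h3] at hs
        omega
      have h5 : (2 : ℤ) ∣ ∑ i, b i ^ 2 := by
        have h6 : ∀ i ∈ (Finset.univ : Finset GolayPt), (2 : ℤ) ∣ b i ^ 2 - b i := by
          intro i _
          have h7 : b i ^ 2 - b i = b i * (b i - 1) := by ring
          rw [h7]
          exact Even.two_dvd (Int.even_mul_pred_self (b i))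
        have h7 := Finset.dvd_sum h6
        rw [Finset.sum_sub_distrib] at h7
        exact (dvd_sub_left h4).1 h7
      have h6 : ∑ i, b i ^ 2 ≠ 0 := by
        intro h7
        apply h0
        have h8 : ∀ i ∈ (Finset.univ : Finset GolayPt), b i ^ 2 = 0 :=
          (Finset.sum_eq_zero_iff_of_nonneg (fun i _ => sq_nonneg _)).1 h7
        funext i
        have h9 := h8 i (Finset.mem_univ _)
        have h10 : b i = 0 := by simpa using h9
        rw [hb i, h10]
        simp
      have h7 : 0 ≤ ∑ i, b i ^ 2 := Finset.sum_nonneg fun i _ => sq_nonneg _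
      rw [h2]
      omega
    · -- the word is nonempty, of weight at least 8
      have hcard : 8 ≤ A.card := by
        have h1 : A.card ≠ 0 := by
          intro h
          rw [Finset.card_eq_zero] at h
          rw [h] at hne
          exact Finset.not_nonempty_empty hne
        rcases CS_card hA with h | h | h | h | h <;> omega
      have h1 : ∀ i ∈ A, 4 ≤ x i ^ 2 := by
        intro i hi
        have := hx i
        simp only [ind, hi, if_true] at this
        have h2 : 2 ≤ |x i| := by
          rw [le_abs]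
          by_contra h3
          push Not at h3
          have : x i = 0 ∨ x i = 1 ∨ x i = -1 := by omega
          rcases this with h4 | h4 | h4 <;> rw [h4] at this <;> omega
        nlinarith [sq_abs (x i), abs_nonneg (x i)]
      have h2 : ∑ i ∈ A, (4 : ℤ) ≤ ∑ i ∈ A, x i ^ 2 := Finset.sum_le_sum h1
      have h3 : ∑ i ∈ A, x i ^ 2 ≤ ∑ i, x i ^ 2 :=
        Finset.sum_le_sum_of_subset_of_nonneg (Finset.subset_univ _) (fun i _ _ => hnn i)
      simp only [Finset.sum_const, nsmul_eq_mul] at h2
      have h4 : (8 : ℤ) ≤ A.card := by exact_mod_cast hcard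
      rw [hsq]
      linarith
  · -- odd vectors
    have h1 : ∀ i ∈ (Finset.univ : Finset GolayPt), (1 : ℤ) ≤ x i ^ 2 := by
      intro i _
      have h2 := hx i
      have h3 := ind_cases A i
      have h4 : x i ≠ 0 := by
        intro h5
        rw [h5] at h2
        rcases h3 with h3 | h3 <;> rw [h3] at h2 <;> omega
      have := sq_pos_of_ne_zero h4
      omega
    have h2 := Finset.sum_le_sum h1
    simp only [Finset.sum_const, Finset.card_univ, nsmul_eq_mul, mul_one] at h2
    have hcard : Fintype.card GolayPt = 24 := by decide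
    rw [hcard] at h2
    rw [← hsq] at h2
    have h3 : ((24 : ℕ) : ℤ) = 24 := rfl
    rw [h3] at h2
    omega

end Cfsg.Agent.Lib.Leech
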