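import Cfsg.Agent.Lib.Leech.Basic

/-!
# The index of the lattice in the integer vectors: `2^36`

The tower: all vectors `⊇ B0` (all coordinates of the same parity; index `2^23`)
`⊇ B1` (the word of the halved differences is in the code; relative index `2^12`)
`⊇` the lattice (relative index 2).
-/

set_option autoImplicit false

namespace Cfsg.Agent.Lib.Leech

open Cfsg Cfsg.Agent.Lib.Golay

/-- Integer vectors. -/
abbrev Gz := GolayPt → ℤ
/-- Binary vectors. -/
abbrev Vv := GolayPt → ZMod 2

/-- Differences modulo 2. -/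
def f0 : Gz →+ Vv where
  toFun x i := ((x i - x none : ℤ) : ZMod 2)
  map_zero' := by funext i; simp
  map_add' x y := by
    funext i
    simp only [Pi.add_apply]
    push_cast
    ring

/-- All coordinates of the same parity. -/
def B0 : AddSubgroup Gz := f0.ker

theorem mem_B0 {x : Gz} : x ∈ B0 ↔ ∀ i, (2 : ℤ) ∣ x i - x none := by
  rw [B0, AddMonoidHom.mem_ker, funext_iff]
  exact forall_congr' fun i => ZMod.intCast_zmod_eq_zero_iff_dvd _ 2

/-- A lift of a binary vector on the residues. -/
def liftV (w : ZMod 23 → ZMod 2) : Gz := fun p =>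
  match p with
  | none => 0
  | some i => ((w i).val : ℤ)

theorem f0_none (x : Gz) : f0 x none = 0 := by
  show ((x none - x none : ℤ) : ZMod 2) = 0
  simp

theorem f0_liftV_some (w : ZMod 23 → ZMod 2) (i : ZMod 23) : f0 (liftV w) (some i) = w i := by
  show ((liftV w (some i) - liftV w none : ℤ) : ZMod 2) = w i
  simp [liftV]

theorem index_B0 : B0.index = 2 ^ 23 := by
  rw [B0, AddSubgroup.index_ker]
  let e : f0.range ≃ (ZMod 23 → ZMod 2) :=
    { toFun := fun v i => v.1 (some i)
      invFun := fun w => ⟨f0 (liftV w), AddMonoidHom.mem_range.2 ⟨_, rfl⟩⟩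
      left_inv := by
        rintro ⟨_, x, rfl⟩
        apply Subtype.ext
        funext p
        rcases p with _ | i
        · exact (f0_none _).trans (f0_none _).symm
        · exact f0_liftV_some _ i
      right_inv := by
        intro w
        funext i
        exact f0_liftV_some w i }
  rw [Nat.card_congr e, Nat.card_fun]
  simp

/-- The code as an additive subgroup. -/
def CA : AddSubgroup Vv := golayCode.toAddSubgroup

theorem mem_CA {v : Vv} : v ∈ CA ↔ v ∈ golayCode := Iff.rfl

theorem card_Q : Nat.card (Vv ⧸ CA) = 2 ^ 12 := by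
  have h := AddSubgroup.card_eq_card_quotient_mul_card_addSubgroup CA
  have h1 : Nat.card CA = 4096 := card_code
  have h2 : Nat.card Vv = 2 ^ 24 := by
    rw [Nat.card_fun]
    simp
  rw [h1, h2] at h
  omega

/-- The word of the halved differences. -/
def aw (x : Gz) : Vv := fun i => (((x i - x none) / 2 : ℤ) : ZMod 2)

theorem aw_add {x y : Gz} (hx : x ∈ B0) (hy : y ∈ B0) : aw (x + y) = aw x + aw y := by
  funext i
  have h1 := mem_B0.1 hx i
  have h2 := mem_B0.1 hy i
  simp only [aw, Pi.add_apply]
  have h3 : (x i + y i - (x none + y none)) / 2 = (x i - x none) / 2 + (y i - y none) / 2 := by omega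
  rw [h3]
  push_cast
  ring

/-- The second level. -/
def B1 : AddSubgroup Gz where
  carrier := {x | x ∈ B0 ∧ aw x ∈ CA}
  zero_mem' := by
    refine ⟨B0.zero_mem, ?_⟩
    have : aw 0 = 0 := by
      funext i
      simp [aw]
    rw [this]
    exact CA.zero_mem
  add_mem' := by
    rintro x y ⟨hx, hx'⟩ ⟨hy, hy'⟩
    refine ⟨B0.add_mem hx hy, ?_⟩
    rw [aw_add hx hy]
    exact CA.add_mem hx' hy'
  neg_mem' := by
    rintro x ⟨hx, hx'⟩
    have hn := B0.neg_mem hx
    refine ⟨hn, ?_⟩
    have h : aw (-x) = - aw x := by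
      have h1 := aw_add hx hn
      rw [add_neg_cancel] at h1
      have h2 : aw 0 = 0 := by
        funext i
        simp [aw]
      rw [h2] at h1
      exact (neg_eq_of_add_eq_zero_right h1.symm).symm
    rw [h]
    exact CA.neg_mem hx'

theorem B1_le_B0 : B1 ≤ B0 := fun _ h => h.1

/-- The map of the second level. -/
def f1 : B0 →+ (Vv ⧸ CA) where
  toFun x := QuotientAddGroup.mk (aw x.1)
  map_zero' := by
    have : aw ((0 : B0) : Gz) = 0 := by
      funext i
      simp [aw]
    rw [this]
    rfl
  map_add' x y := by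
    show QuotientAddGroup.mk (aw (x.1 + y.1)) = _
    rw [aw_add x.2 y.2]
    rfl

theorem ker_f1 : f1.ker = B1.addSubgroupOf B0 := by
  ext x
  rw [AddMonoidHom.mem_ker, AddSubgroup.mem_addSubgroupOf]
  show (QuotientAddGroup.mk (aw x.1) : Vv ⧸ CA) = 0 ↔ x.1 ∈ B1
  rw [QuotientAddGroup.eq_zero_iff]
  exact ⟨fun h => ⟨x.2, h⟩, fun h => h.2⟩

/-- The all-ones word is in the code. -/
theorem one_mem_CA : (1 : Vv) ∈ CA := by
  apply Submodule.subset_span
  exact Or.inr rfl

theorem f1_surjective : Function.Surjective f1 := by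
  intro q
  obtain ⟨v, rfl⟩ := QuotientAddGroup.mk_surjective q
  -- the word `v` or its complement vanishes at the extra point
  obtain ⟨w, hw0, hw⟩ : ∃ w : Vv, w none = 0 ∧ (QuotientAddGroup.mk w : Vv ⧸ CA) = QuotientAddGroup.mk v := by
    by_cases h : v none = 0
    · exact ⟨v, h, rfl⟩
    · refine ⟨v + 1, ?_, ?_⟩
      · have h2 : ∀ a : ZMod 2, a ≠ 0 → a + 1 = 0 := by decide
        exact h2 _ h
      · rw [QuotientAddGroup.eq]
        have : -(v + 1) + v = -1 := by abel
        rw [this]
        exact CA.neg_mem one_mem_CA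
  let x : Gz := fun i => 2 * ((w i).val : ℤ)
  have hx0 : x none = 0 := by simp [x, hw0]
  have hx : x ∈ B0 := by
    rw [mem_B0]
    intro i
    rw [hx0, sub_zero]
    exact ⟨_, rfl⟩
  refine ⟨⟨x, hx⟩, ?_⟩
  rw [← hw]
  show QuotientAddGroup.mk (aw x) = _
  congr 1
  funext i
  simp only [aw, hx0, sub_zero, x]
  rw [Int.mul_ediv_cancel_left _ (by norm_num)]
  simp

theorem relIndex_B1 : B1.relIndex B0 = 2 ^ 12 := by
  rw [AddSubgroup.relIndex, ← ker_f1, AddSubgroup.index_ker, AddMonoidHom.range_eq_top.2 f1_surjective]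
  rw [Nat.card_congr AddSubgroup.topEquiv.toEquiv]
  exact card_Q

/-! ### The last level -/

theorem even_of_B0 {x : Gz} (hx : x ∈ B0) (i : GolayPt) : x i = x none + 2 * ((x i - x none) / 2) := by
  have := mem_B0.1 hx i
  omega

/-- The binary vector attached to a finset. -/
def wd (A : Finset GolayPt) : Vv := fun i => if i ∈ A then 1 else 0

theorem support_wd (A : Finset GolayPt) : support₂ (wd A) = A := by
  ext i
  show i ∈ Finset.univ.filter (fun a => wd A a ≠ 0) ↔ _
  rw [Finset.mem_filter]
  simp only [wd, Finset.mem_univ, true_and]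
  by_cases h : i ∈ A <;> simp [h]

theorem wd_mem {A : Finset GolayPt} (hA : A ∈ CS) : wd A ∈ CA := by
  obtain ⟨v, hv, rfl⟩ := hA
  have : wd (support₂ v) = v := support_inj (support_wd _)
  rw [this]
  exact hv

theorem aw_eq_zero_iff_even {x : Gz} (hx : x ∈ B0) (i : GolayPt) :
    aw x i = 0 ↔ (x i - x none) % 4 = 0 := by
  have h1 := mem_B0.1 hx i
  show (((x i - x none) / 2 : ℤ) : ZMod 2) = 0 ↔ _
  rw [ZMod.intCast_zmod_eq_zero_iff_dvd]
  push_cast
  omega

/-- The support of `aw`. -/
def awS (x : Gz) : Finset GolayPt := support₂ (aw x)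

theorem awS_mem {x : Gz} (hx : x ∈ B1) : awS x ∈ CS := ⟨aw x, hx.2, rfl⟩

theorem wd_awS (x : Gz) : wd (awS x) = aw x := support_inj (support_wd _)

theorem mem_awS {x : Gz} {i : GolayPt} : i ∈ awS x ↔ aw x i ≠ 0 := by
  simp [awS, support₂]

theorem B1_data {x : Gz} (hx : x ∈ B1) (i : GolayPt) :
    x i % 4 = (x none + 2 * ind (awS x) i) % 4 := by
  have h1 := mem_B0.1 hx.1 i
  have h2 := aw_eq_zero_iff_even hx.1 i
  simp only [ind, mem_awS]
  split_ifs with h3
  · have : ¬ (x i - x none) % 4 = 0 := fun h => h3 (h2.2 h)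
    omega
  · have h4 : aw x i = 0 := by simpa using h3
    have := h2.1 h4
    omega

/-- The lattice inside `B1`. -/
theorem mem_set_iff {x : Gz} (hx : x ∈ B1) :
    x ∈ leechSet ↔ (∑ i, x i) % 8 = (4 * x none) % 8 := by
  constructor
  · intro h
    obtain ⟨m, A, -, hA, hd, hs⟩ := data_of_leech h
    rw [hs]
    have h2 := hd none
    have h3 := ind_cases A none
    rcases h3 with h3 | h3 <;> rw [h3] at h2 <;> omega
  · intro h
    exact leech_of_data (m := x none) (A := awS x) ⟨awS_mem hx, B1_data hx, h⟩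

theorem sum_four_dvd {x : Gz} (hx : x ∈ B1) : (∑ i, x i) % 4 = 0 := by
  have h1 : ∀ i ∈ (Finset.univ : Finset GolayPt), (4 : ℤ) ∣ x i - (x none + 2 * ind (awS x) i) := by
    intro i _
    have := B1_data hx i
    omega
  have h2 := Finset.dvd_sum h1
  rw [Finset.sum_sub_distrib, Finset.sum_add_distrib, ← Finset.mul_sum] at h2
  have h3 : ∑ i, ind (awS x) i = ((awS x).card : ℤ) := by
    simp only [ind]
    rw [Finset.sum_ite_mem]
    simp
  rw [h3] at h2
  simp only [Finset.sum_const, Finset.card_univ] at h2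
  have hcard : Fintype.card GolayPt = 24 := by decide
  rw [hcard] at h2
  have h4 : (4 : ℤ) ∣ ((awS x).card : ℤ) := by exact_mod_cast CS_four_dvd (awS_mem hx)
  simp only [nsmul_eq_mul, Nat.cast_ofNat] at h2
  omega

theorem leechSub_le_B1 : leechSub ≤ B1 := by
  intro x hx
  obtain ⟨m, A, -, hA, hd, hs⟩ := data_of_leech hx
  have h0 : x ∈ B0 := by
    rw [mem_B0]
    intro i
    have h1 := hd i
    have h2 := hd none
    have h3 := ind_cases A i
    have h4 := ind_cases A none
    rcases h3 with h3 | h3 <;> rcases h4 with h4 | h4 <;> rw [h3] at h1 <;> rw [h4] at h2 <;> omega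
  refine ⟨h0, ?_⟩
  by_cases hn : none ∈ A
  · have : aw x = wd A + 1 := by
      funext i
      have h1 := hd i
      have h2 := hd none
      simp only [ind, hn, if_true] at h2
      have h5 := aw_eq_zero_iff_even h0 i
      simp only [Pi.add_apply, Pi.one_apply, wd]
      by_cases hi : i ∈ A
      · simp only [ind, hi, if_true] at h1
        have : aw x i = 0 := h5.2 (by omega)
        rw [this, if_pos hi]
        decide
      · simp only [ind, hi, if_false] at h1
        have h6 : aw x i ≠ 0 := fun h => by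
          have := h5.1 h
          omega
        have h7 : ∀ a : ZMod 2, a ≠ 0 → a = 1 := by decide
        rw [h7 _ h6, if_neg hi]
        decide
    rw [this]
    exact CA.add_mem (wd_mem hA) one_mem_CA
  · have : aw x = wd A := by
      funext i
      have h1 := hd i
      have h2 := hd none
      simp only [ind, hn, if_false] at h2
      have h5 := aw_eq_zero_iff_even h0 i
      simp only [wd]
      by_cases hi : i ∈ A
      · simp only [ind, hi, if_true] at h1
        have h6 : aw x i ≠ 0 := fun h => by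
          have := h5.1 h
          omega
        have h7 : ∀ a : ZMod 2, a ≠ 0 → a = 1 := by decide
        rw [h7 _ h6, if_pos hi]
      · simp only [ind, hi, if_false] at h1
        rw [h5.2 (by omega), if_neg hi]
    rw [this]
    exact wd_mem hA

/-- The shift by four at one coordinate. -/
def a0 : Gz := fun p => if p = some 0 then 4 else 0

theorem a0_mem : a0 ∈ B1 := by
  have h0 : a0 ∈ B0 := by
    rw [mem_B0]
    intro i
    simp only [a0]
    split_ifs <;> simp
  refine ⟨h0, ?_⟩
  have : aw a0 = 0 := by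
    funext i
    rw [Pi.zero_apply, aw_eq_zero_iff_even h0]
    simp only [a0]
    split_ifs <;> simp
  rw [this]
  exact CA.zero_mem

theorem sum_a0 : ∑ i, a0 i = 4 := by
  simp only [a0]
  rw [Finset.sum_ite_eq']
  simp

theorem a0_none : a0 none = 0 := by
  simp [a0]

theorem relIndex_L : leechSub.relIndex B1 = 2 := by
  rw [AddSubgroup.relIndex, AddSubgroup.index_eq_two_iff]
  refine ⟨⟨a0, a0_mem⟩, ?_⟩
  rintro ⟨b, hb⟩
  simp only [AddSubgroup.mem_addSubgroupOf, AddMemClass.coe_add]
  have h1 : b ∈ leechSub ↔ _ := mem_set_iff hb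
  have h2 : b + a0 ∈ leechSub ↔ _ := mem_set_iff (B1.add_mem hb a0_mem)
  rw [h1, h2]
  simp only [Pi.add_apply, Finset.sum_add_distrib, sum_a0, a0_none]
  have h3 := sum_four_dvd hb
  have h4 : (∑ i, b i) % 8 = (4 * b none) % 8 ∨ (∑ i, b i) % 8 = (4 * b none + 4) % 8 := by omega
  rcases h4 with h4 | h4
  · right
    constructor
    · exact h4
    · omega
  · left
    constructor
    · omega
    · omega

theorem index_leech : leechLattice.index = 2 ^ 36 := by
  rw [leechLattice_eq]
  have h1 := AddSubgroup.relIndex_mul_index leechSub_le_B1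
  have h2 := AddSubgroup.relIndex_mul_index B1_le_B0
  rw [← h1, ← h2, relIndex_L, relIndex_B1, index_B0]
  norm_num

end Cfsg.Agent.Lib.Leech
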