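import Cfsg.Agent.Lib.Leech.Index

/-!
# Short vectors of the lattice modulo twice the lattice

The parallelogram law: `v` and `w` congruent modulo `2 Λ` give the lattice vectors `a = (v - w) / 2`
and `b = (v + w) / 2` with `‖a‖² + ‖b‖² = (‖v‖² + ‖w‖²) / 2`.
-/

set_option autoImplicit false

namespace Cfsg.Agent.Lib.Leech

open Cfsg

theorem sqNorm_add_sub (a b : GolayPt → ℤ) :
    sqNorm (b + a) + sqNorm (b - a) = 2 * (sqNorm a + sqNorm b) := by
  simp only [sqNorm, Pi.add_apply, Pi.sub_apply, Finset.mul_sum, ← Finset.sum_add_distrib]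
  refine Finset.sum_congr rfl fun i _ => ?_
  ring

theorem dotInt_add_sub (a b : GolayPt → ℤ) :
    dotInt (b + a) (b - a) = sqNorm b - sqNorm a := by
  simp only [sqNorm, dotInt, Pi.add_apply, Pi.sub_apply, ← Finset.sum_sub_distrib]
  refine Finset.sum_congr rfl fun i _ => ?_
  ring

theorem short_congruent {v w : GolayPt → ℤ} (hv : v ∈ leechLattice) (hw : w ∈ leechLattice)
    (hvn : sqNorm v ≤ 64) (hwn : sqNorm w ≤ 64)
    (hc : ∃ z ∈ leechLattice, v - w = 2 • z) :
    w = v ∨ w = -v ∨ (sqNorm v = 64 ∧ sqNorm w = 64 ∧ dotInt v w = 0) := by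
  obtain ⟨a, ha, hva⟩ := hc
  have hvw : v = w + 2 • a := by rw [← hva]; abel
  set b : GolayPt → ℤ := w + a with hb
  have hbL : b ∈ leechLattice := add_mem hw ha
  have hvb : v = b + a := by rw [hvw, hb, two_nsmul]; abel
  have hwb : w = b - a := by rw [hb]; abel
  by_cases ha0 : a = 0
  · left
    rw [hvw, ha0]; simp
  by_cases hb0 : b = 0
  · right; left
    rw [hwb, hvb, hb0]; simp
  right; right
  have h1 := sq_ge_aux (mem_leechLattice.mp ha) ha0
  have h2 := sq_ge_aux (mem_leechLattice.mp hbL) hb0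
  have h3 := sqNorm_add_sub a b
  rw [← hvb, ← hwb] at h3
  have h4 := dotInt_add_sub a b
  rw [← hvb, ← hwb] at h4
  refine ⟨by omega, by omega, by omega⟩

/-! ### A maximal singular subspace -/

open Cfsg.Agent.Lib.Golay

/-- The words of the code vanishing at the extra point. -/
def C0 : AddSubgroup Vv where
  carrier := {c | c ∈ CA ∧ c none = 0}
  zero_mem' := ⟨CA.zero_mem, rfl⟩
  add_mem' := by
    rintro a b ⟨ha, ha'⟩ ⟨hb, hb'⟩
    exact ⟨CA.add_mem ha hb, by simp [ha', hb']⟩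
  neg_mem' := by
    rintro a ⟨ha, ha'⟩
    exact ⟨CA.neg_mem ha, by simp [ha']⟩

/-- Evaluation at the extra point. -/
def evC : CA →+ ZMod 2 where
  toFun c := c.1 none
  map_zero' := rfl
  map_add' _ _ := rfl

theorem evC_surjective : Function.Surjective evC := by
  intro a
  by_cases h : a = 0
  · exact ⟨0, by rw [h]; rfl⟩
  · have h7 : ∀ a : ZMod 2, a ≠ 0 → a = 1 := by decide
    exact ⟨⟨1, one_mem_CA⟩, by rw [h7 a h]; rfl⟩

theorem card_C0 : Nat.card C0 = 2 ^ 11 := by
  have h1 : Nat.card CA = 4096 := card_code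
  have h2 := AddSubgroup.card_eq_card_quotient_mul_card_addSubgroup evC.ker
  have h3 : Nat.card (CA ⧸ evC.ker) = 2 := by
    rw [Nat.card_congr (QuotientAddGroup.quotientKerEquivOfSurjective evC evC_surjective).toEquiv]
    simp
  have e : evC.ker ≃ C0 :=
    { toFun := fun x => ⟨x.1.1, x.1.2, x.2⟩
      invFun := fun x => ⟨⟨x.1, x.2.1⟩, x.2.2⟩
      left_inv := fun _ => rfl
      right_inv := fun _ => rfl }
  rw [← Nat.card_congr e]
  rw [h1, h3] at h2
  omega

theorem leech_le_B1' {x : GolayPt → ℤ} (hx : x ∈ leechLattice) : x ∈ B1 :=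
  leechSub_le_B1 (by rw [leechLattice_eq] at hx; exact hx)

/-- The map of the lattice onto `C0 × 𝔽₂`. -/
def phiA : leechLattice →+ (C0 × ZMod 2) where
  toFun x := (⟨aw x.1, (leech_le_B1' x.2).2, by simp [aw]⟩, ((x.1 none : ℤ) : ZMod 2))
  map_zero' := by
    refine Prod.ext (Subtype.ext ?_) (by simp)
    funext i
    simp [aw]
  map_add' x y := by
    refine Prod.ext (Subtype.ext ?_) (by simp)
    exact aw_add (leech_le_B1' x.2).1 (leech_le_B1' y.2).1

theorem phiA_fst (x : leechLattice) : ((phiA x).1 : Vv) = aw x.1 := rfl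

theorem phiA_snd (x : leechLattice) : (phiA x).2 = ((x.1 none : ℤ) : ZMod 2) := rfl

/-- The lift of a word. -/
def twoInd (A : Finset GolayPt) : GolayPt → ℤ := fun i => 2 * ind A i

theorem sum_ind (A : Finset GolayPt) : ∑ i, ind A i = (A.card : ℤ) := by
  simp only [ind]
  rw [Finset.sum_ite_mem]
  simp

theorem twoInd_mem {A : Finset GolayPt} (hA : A ∈ CS) : twoInd A ∈ leechLattice := by
  rw [mem_leechLattice]
  apply leech_of_data (m := 0) (A := A)
  refine ⟨hA, fun i => by simp [twoInd], ?_⟩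
  simp only [twoInd]
  rw [← Finset.mul_sum, sum_ind]
  have h4 : (4 : ℤ) ∣ (A.card : ℤ) := by exact_mod_cast CS_four_dvd hA
  omega

/-- A vector with odd coordinates. -/
def oddVec : GolayPt → ℤ := fun p => if p = some 0 then 5 else 1

theorem oddVec_mem : oddVec ∈ leechLattice := by
  rw [mem_leechLattice]
  exact Spor.mem_leechSet_of_const_mod_four _ 1 1 rfl (by decide) (by decide)

theorem phiA_surjective : Function.Surjective phiA := by
  rintro ⟨⟨c, hc, hc0⟩, e⟩
  -- the even vector with word `c`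
  have hy : twoInd (support₂ c) ∈ leechLattice := twoInd_mem ⟨c, hc, rfl⟩
  have hyfst : aw (twoInd (support₂ c)) = c := by
    funext i
    have h7 : ∀ a : ZMod 2, a = 0 ∨ a = 1 := by decide
    have h8 : i ∈ support₂ c ↔ c i ≠ 0 := by simp [support₂]
    have h9 : none ∉ support₂ c := by simp [support₂, hc0]
    simp only [aw, twoInd, ind, h9, if_false]
    by_cases hi : i ∈ support₂ c
    · simp only [hi, if_true]
      have : c i = 1 := by
        rcases h7 (c i) with h | h
        · exact absurd h (h8.1 hi)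
        · exact h
      rw [this]
      norm_num
    · simp only [hi, if_false]
      have : c i = 0 := by
        by_contra h
        exact hi (h8.2 h)
      rw [this]
      norm_num
  have hysnd : twoInd (support₂ c) none = 0 := by
    have h9 : none ∉ support₂ c := by simp [support₂, hc0]
    simp [twoInd, ind, h9]
  have hu : aw oddVec = 0 := by
    funext i
    have h0 : oddVec ∈ B0 := (leech_le_B1' oddVec_mem).1
    rw [Pi.zero_apply, aw_eq_zero_iff_even h0]
    simp only [oddVec]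
    split_ifs <;> simp
  have husnd : oddVec none = 1 := by decide
  by_cases he : e = 0
  · refine ⟨⟨_, hy⟩, Prod.ext (Subtype.ext hyfst) ?_⟩
    rw [phiA_snd, he]
    simp [hysnd]
  · have h7 : ∀ a : ZMod 2, a ≠ 0 → a = 1 := by decide
    refine ⟨⟨_, hy⟩ + ⟨_, oddVec_mem⟩, ?_⟩
    rw [map_add]
    refine Prod.ext (Subtype.ext ?_) ?_
    · show ((phiA ⟨_, hy⟩).1 : Vv) + ((phiA ⟨_, oddVec_mem⟩).1 : Vv) = c
      rw [phiA_fst, phiA_fst]
      simp only [hyfst, hu, add_zero]
    · rw [Prod.snd_add, phiA_snd, phiA_snd, h7 e he]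
      simp [hysnd, husnd]

theorem index_phiA : phiA.ker.index = 2 ^ 12 := by
  rw [AddSubgroup.index_ker, AddMonoidHom.range_eq_top.2 phiA_surjective,
    Nat.card_congr AddSubgroup.topEquiv.toEquiv, Nat.card_prod, card_C0]
  simp

theorem mem_ker_phiA_iff {x : leechLattice} :
    x ∈ phiA.ker ↔ aw x.1 = 0 ∧ (2 : ℤ) ∣ x.1 none := by
  rw [AddMonoidHom.mem_ker]
  constructor
  · intro h
    refine ⟨?_, ?_⟩
    · have := congrArg (fun p => ((p.1 : C0) : Vv)) h
      exact this
    · have := congrArg Prod.snd h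
      rw [phiA_snd] at this
      exact (ZMod.intCast_zmod_eq_zero_iff_dvd _ 2).1 this
  · rintro ⟨h1, h2⟩
    refine Prod.ext (Subtype.ext h1) ?_
    rw [phiA_snd]
    exact (ZMod.intCast_zmod_eq_zero_iff_dvd _ 2).2 h2

/-- The sum of squares of a vector of the subgroup. -/
theorem sqNorm_of_ker {x : GolayPt → ℤ} (hx : x ∈ leechLattice) (h1 : aw x = 0)
    (h2 : (2 : ℤ) ∣ x none) : (32 : ℤ) ∣ sqNorm x := by
  have hB := leech_le_B1' hx
  obtain ⟨m, hm, hs, -⟩ := mem_leechLattice.1 hx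
  have hmn : x none % 2 = m % 2 := hm none
  have hs' : (∑ i, x i) % 8 = (4 * m) % 8 := hs
  -- write every coordinate as `2 d + 4 u i`
  obtain ⟨d, hd⟩ := h2
  have hu : ∀ i, ∃ u : ℤ, x i = 2 * d + 4 * u := by
    intro i
    have := (aw_eq_zero_iff_even hB.1 i).1 (by rw [h1]; rfl)
    exact ⟨(x i - x none) / 4, by omega⟩
  choose u hu using hu
  have hcard : Fintype.card GolayPt = 24 := by decide
  have hsum : ∑ i, x i = 48 * d + 4 * ∑ i, u i := by
    simp only [hu, Finset.sum_add_distrib, ← Finset.mul_sum, Finset.sum_const, Finset.card_univ,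
      hcard]
    simp only [nsmul_eq_mul, Nat.cast_ofNat]
    ring
  have hs2 : (2 : ℤ) ∣ ∑ i, u i := by
    rw [hsum] at hs'
    omega
  obtain ⟨s, hs3⟩ := hs2
  have hsq : sqNorm x = 96 * d ^ 2 + 16 * d * ∑ i, u i + 16 * ∑ i, u i ^ 2 := by
    have : ∀ i, x i ^ 2 = 4 * d ^ 2 + 16 * d * u i + 16 * u i ^ 2 := by
      intro i
      rw [hu i]
      ring
    simp only [sqNorm, this, Finset.sum_add_distrib, ← Finset.mul_sum, Finset.sum_const,
      Finset.card_univ, hcard]
    simp only [nsmul_eq_mul, Nat.cast_ofNat]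
    ring
  have h5 : (2 : ℤ) ∣ ∑ i, u i ^ 2 := by
    have h6 : (2 : ℤ) ∣ ∑ i, (u i ^ 2 - u i) := by
      apply Finset.dvd_sum
      intro i _
      exact even_iff_two_dvd.1 (by
        have : u i ^ 2 - u i = u i * (u i - 1) := by ring
        rw [this]
        exact Int.even_mul_pred_self _)
    rw [Finset.sum_sub_distrib] at h6
    omega
  obtain ⟨t, ht⟩ := h5
  rw [hsq, hs3, ht]
  refine ⟨3 * d ^ 2 + d * s + t, by ring⟩

/-- The subgroup. -/
def singA : AddSubgroup (GolayPt → ℤ) := phiA.ker.map leechLattice.subtype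

theorem singA_le : singA ≤ leechLattice := by
  rintro _ ⟨x, -, rfl⟩
  exact x.2

theorem mem_singA {x : GolayPt → ℤ} :
    x ∈ singA ↔ x ∈ leechLattice ∧ aw x = 0 ∧ (2 : ℤ) ∣ x none := by
  constructor
  · rintro ⟨y, hy, rfl⟩
    exact ⟨y.2, mem_ker_phiA_iff.1 hy⟩
  · rintro ⟨h1, h2⟩
    exact ⟨⟨x, h1⟩, mem_ker_phiA_iff.2 h2, rfl⟩

theorem singA_addSubgroupOf : singA.addSubgroupOf leechLattice = phiA.ker := by
  ext x
  rw [AddSubgroup.mem_addSubgroupOf, mem_singA, mem_ker_phiA_iff]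
  exact ⟨fun h => h.2, fun h => ⟨x.2, h⟩⟩

theorem two_smul_mem_singA {v : GolayPt → ℤ} (hv : v ∈ leechLattice) : (2 : ℤ) • v ∈ singA := by
  have hx : (⟨(2 : ℤ) • v, zsmul_mem hv 2⟩ : leechLattice) ∈ phiA.ker := by
    have : (⟨(2 : ℤ) • v, zsmul_mem hv 2⟩ : leechLattice) = (2 : ℤ) • ⟨v, hv⟩ := rfl
    rw [AddMonoidHom.mem_ker, this, map_zsmul]
    have h2 : ∀ a : C0 × ZMod 2, (2 : ℤ) • a = 0 := by
      rintro ⟨⟨c, hc⟩, e⟩
      refine Prod.ext (Subtype.ext ?_) ?_
      · funext i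
        show (2 : ℤ) • (c i) = 0
        have h3 : ∀ a : ZMod 2, (2 : ℤ) • a = 0 := by decide
        exact h3 _
      · show (2 : ℤ) • e = 0
        have h3 : ∀ a : ZMod 2, (2 : ℤ) • a = 0 := by decide
        exact h3 _
    exact h2 _
  exact ⟨_, hx, rfl⟩

end Cfsg.Agent.Lib.Leech
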