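import Cfsg.Agent.Lib.Leech.ModTwo
import Cfsg.Agent.Lib.KnownSimple.Leech.Isom
import Cfsg.Agent.Lib.M24.Basic

/-!
# A quadratic form on the Leech lattice modulo two vanishes on a 12-dimensional subspace

Any function `K` on the lattice with values in the field of two elements whose polarisation is
biadditive, which vanishes on doubles and which is invariant under the sign changes on the words of
the code and under the coordinate permutations from `M24` vanishes on `singA`.
-/

set_option autoImplicit false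

namespace Cfsg.Agent.Lib.Leech.Plus

open Cfsg Cfsg.Spor Cfsg.Agent.Lib.Golay Cfsg.Agent.Lib.M24

abbrev V : Type := GolayPt → ℤ

/-- Four times a unit vector. -/
def e4 (i : GolayPt) : V := fun p => if p = i then 4 else 0

/-- The vector `4 e_i + 4 e_j`. -/
def v (i j : GolayPt) : V := e4 i + e4 j

/-- The vector `8 e_i`. -/
def a (i : GolayPt) : V := e4 i + e4 i

theorem v_comm (i j : GolayPt) : v i j = v j i := add_comm _ _

theorem sum_e4 (i : GolayPt) : ∑ p, e4 i p = 4 := by
  simp [e4]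

theorem mem_of_four_dvd {x : V} (h : ∀ i, (4 : ℤ) ∣ x i) (hs : (8 : ℤ) ∣ ∑ i, x i) :
    x ∈ leechLattice := by
  rw [mem_leechLattice]
  apply leech_of_data (m := 0) (A := ∅)
  refine ⟨CS_empty, fun i => ?_, ?_⟩
  · have := h i
    simp only [ind, Finset.notMem_empty, if_false]
    omega
  · omega

theorem e4_dvd (i p : GolayPt) : (4 : ℤ) ∣ e4 i p := by
  unfold e4
  split_ifs <;> simp

theorem v_mem (i j : GolayPt) : v i j ∈ leechLattice := by
  apply mem_of_four_dvd
  · intro p
    exact dvd_add (e4_dvd _ _) (e4_dvd _ _)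
  · simp only [v, Pi.add_apply, Finset.sum_add_distrib, sum_e4]
    norm_num

theorem a_mem (i : GolayPt) : a i ∈ leechLattice := v_mem i i

theorem sub_mem' (i j : GolayPt) : e4 i - e4 j ∈ leechLattice := by
  apply mem_of_four_dvd
  · intro p
    exact dvd_sub (e4_dvd _ _) (e4_dvd _ _)
  · simp only [Pi.sub_apply, Finset.sum_sub_distrib, sum_e4]
    norm_num

/-- The polarisation. -/
def B (K : V → ZMod 2) (x y : V) : ZMod 2 := K (x + y) + K x + K y

theorem zmod2_double (a : ZMod 2) : a + a = 0 := CharTwo.add_self_eq_zero a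

/-- The hypotheses on the form. -/
structure IsForm (K : V → ZMod 2) : Prop where
  hadd : ∀ x y u, x ∈ leechLattice → y ∈ leechLattice → u ∈ leechLattice →
    B K (x + y) u = B K x u + B K y u
  htwo : ∀ x, x ∈ leechLattice → K (x + x) = 0
  hsign : ∀ c ∈ Leech.CS, ∀ x, x ∈ leechLattice → K (fun i => if i ∈ c then -x i else x i) = K x
  hperm : ∀ σ ∈ M24, ∀ x, x ∈ leechLattice → K (fun i => x (σ i)) = K x

variable {K : V → ZMod 2}

theorem B_comm (x y : V) : B K x y = B K y x := by
  unfold B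
  rw [add_comm x y]
  ring

theorem K_add (K : V → ZMod 2) (x y : V) : K (x + y) = K x + K y + B K x y := by
  unfold B
  generalize K (x + y) = s
  generalize K x = t
  generalize K y = u
  revert s t u
  decide

theorem a_eq (i j : GolayPt) : a i = a j + ((e4 i - e4 j) + (e4 i - e4 j)) := by
  simp only [a]
  abel

/-- There is a word containing `i` but not `j`. -/
theorem exists_word {i j : GolayPt} (hij : i ≠ j) : ∃ c ∈ Leech.CS, i ∈ c ∧ j ∉ c := by
  obtain ⟨x, hx⟩ := exists_fresh [i, j] (by simp)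
  obtain ⟨y, hy⟩ := exists_fresh [i, j, x] (by simp)
  obtain ⟨t, ht⟩ := exists_fresh [i, j, x, y] (by simp)
  simp only [List.mem_cons, List.not_mem_nil, or_false, not_or] at hx hy ht
  obtain ⟨k, hk, h1, h2, -, -, -⟩ := exists_map5 hij (Ne.symm hx.1) (Ne.symm hy.1) (Ne.symm ht.1)
    (Ne.symm hx.2) (Ne.symm hy.2.1) (Ne.symm ht.2.1) (Ne.symm hy.2.2) (Ne.symm ht.2.2.1)
    (Ne.symm ht.2.2.2)
  have ho : ((enc.finOf 8401364 : Finset GolayPt)).image (⇑k⁻¹) ∈ Leech.CS := by
    apply Cfsg.Agent.Lib.Steiner.image_mem_of_aut (M24.inv_mem hk)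
    exact wit_octad.1
  refine ⟨_, ho, ?_, ?_⟩
  · rw [Finset.mem_image]
    refine ⟨pt 23, by decide +kernel, ?_⟩
    rw [← h1]
    simp
  · rw [Finset.mem_image]
    rintro ⟨w, hw, hw2⟩
    have : w = pt 0 := by
      rw [← h2, ← hw2]
      simp
    rw [this] at hw
    exact absurd hw (by decide +kernel)

theorem v_comp {k : Equiv.Perm GolayPt} (i j : GolayPt) :
    (fun p => v (k i) (k j) (k p)) = v i j := by
  funext p
  simp [v, e4, k.injective.eq_iff]

theorem exists_map4 {p q r s : GolayPt} (h1 : p ≠ q) (h2 : p ≠ r) (h3 : p ≠ s) (h4 : q ≠ r)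
    (h5 : q ≠ s) (h6 : r ≠ s) : ∃ k ∈ M24, k p = pt 23 ∧ k q = pt 0 ∧ k r = pt 1 ∧ k s = pt 2 := by
  obtain ⟨t, ht⟩ := exists_fresh [p, q, r, s] (by simp)
  simp only [List.mem_cons, List.not_mem_nil, or_false, not_or] at ht
  obtain ⟨k, hk, e1, e2, e3, e4, -⟩ := exists_map5 h1 h2 h3 (Ne.symm ht.1) h4 h5 (Ne.symm ht.2.1) h6
    (Ne.symm ht.2.2.1) (Ne.symm ht.2.2.2)
  exact ⟨k, hk, e1, e2, e3, e4⟩

theorem exists_map3 {p q r : GolayPt} (h1 : p ≠ q) (h2 : p ≠ r) (h4 : q ≠ r) :
    ∃ k ∈ M24, k p = pt 23 ∧ k q = pt 0 ∧ k r = pt 1 := by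
  obtain ⟨t, ht⟩ := exists_fresh [p, q, r] (by simp)
  simp only [List.mem_cons, List.not_mem_nil, or_false, not_or] at ht
  obtain ⟨k, hk, e1, e2, e3, -⟩ := exists_map4 h1 h2 (Ne.symm ht.1) h4 (Ne.symm ht.2.1) (Ne.symm ht.2.2)
  exact ⟨k, hk, e1, e2, e3⟩

/-- The relation coming from the octad. -/
theorem octad_rel : v (pt 23) (pt 2) + v (pt 4) (pt 6) =
    (v (pt 7) (pt 8) + v (pt 12) (pt 13)) +
      ((fun t => 2 * Leech.ind (enc.finOf 8401364) t - 4 * Leech.ind (enc.finOf 12672) t) +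
        (fun t => 2 * Leech.ind (enc.finOf 8401364) t - 4 * Leech.ind (enc.finOf 12672) t)) := by
  have h : ∀ t : GolayPt, (v (pt 23) (pt 2) + v (pt 4) (pt 6)) t =
      ((v (pt 7) (pt 8) + v (pt 12) (pt 13)) +
      ((fun t => 2 * Leech.ind (enc.finOf 8401364) t - 4 * Leech.ind (enc.finOf 12672) t) +
        (fun t => 2 * Leech.ind (enc.finOf 8401364) t - 4 * Leech.ind (enc.finOf 12672) t))) t := by
    decide +kernel
  funext t
  exact h t

theorem octad_mem : (fun t => 2 * Leech.ind (enc.finOf 8401364) t - 4 * Leech.ind (enc.finOf 12672) t : V)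
    ∈ leechLattice := by
  rw [mem_leechLattice]
  apply leech_of_data (m := 0) (A := enc.finOf 8401364)
  refine ⟨wit_octad.1, fun i => ?_, ?_⟩
  · show (2 * Leech.ind (enc.finOf 8401364) i - 4 * Leech.ind (enc.finOf 12672) i) % 4 = _
    omega
  · have h : ∑ i, (2 * Leech.ind (enc.finOf 8401364) i - 4 * Leech.ind (enc.finOf 12672) i) = 0 := by
      rw [Finset.sum_sub_distrib, ← Finset.mul_sum, ← Finset.mul_sum, Leech.sum_ind, Leech.sum_ind]
      have h1 : (enc.finOf 8401364 : Finset GolayPt).card = 8 := by decide +kernel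
      have h2 : (enc.finOf 12672 : Finset GolayPt).card = 4 := by decide +kernel
      rw [h1, h2]
      norm_num
    rw [h]
    norm_num

namespace IsForm

variable (hK : IsForm K)
include hK

theorem B_self {x : V} (hx : x ∈ leechLattice) : B K x x = 0 := by
  unfold B
  rw [hK.htwo x hx]
  generalize K x = t
  revert t
  decide

theorem hadd' {u x y : V} (hu : u ∈ leechLattice) (hx : x ∈ leechLattice) (hy : y ∈ leechLattice) :
    B K u (x + y) = B K u x + B K u y := by
  rw [B_comm, hK.hadd x y u hx hy hu, B_comm x, B_comm y]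

theorem K_zero : K 0 = 0 := by
  have := hK.htwo 0 (zero_mem _)
  rwa [add_zero] at this

/-- Congruence modulo twice the lattice. -/
theorem cong_K {y w : V} (hy : y ∈ leechLattice) (hw : w ∈ leechLattice) : K (y + (w + w)) = K y := by
  rw [K_add K, hK.htwo w hw, hK.hadd' hy hw hw, zmod2_double]
  simp

theorem cong_B {y w u : V} (hy : y ∈ leechLattice) (hw : w ∈ leechLattice) (hu : u ∈ leechLattice) :
    B K (y + (w + w)) u = B K y u := by
  rw [hK.hadd y _ u hy (add_mem hw hw) hu, hK.hadd w w u hw hw hu, zmod2_double]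
  simp

theorem K_neg {x : V} (hx : x ∈ leechLattice) : K (-x) = K x := by
  have h := hK.cong_K (neg_mem hx) hx
  have e : -x + (x + x) = x := by abel
  rw [e] at h
  exact h.symm

theorem B_neg {x u : V} (hx : x ∈ leechLattice) (hu : u ∈ leechLattice) : B K (-x) u = B K x u := by
  have h := hK.cong_B (neg_mem hx) hx hu
  have e : -x + (x + x) = x := by abel
  rw [e] at h
  exact h.symm

theorem B_double {w u : V} (hw : w ∈ leechLattice) (hu : u ∈ leechLattice) : B K (w + w) u = 0 := by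
  rw [hK.hadd w w u hw hw hu, zmod2_double]

/-! ### The vector `8 e_i` -/

theorem K_a_eq (i j : GolayPt) : K (a i) = K (a j) := by
  rw [a_eq i j]
  exact hK.cong_K (a_mem j) (sub_mem' i j)

theorem B_a_eq (i j : GolayPt) {u : V} (hu : u ∈ leechLattice) : B K (a i) u = B K (a j) u := by
  rw [a_eq i j]
  exact hK.cong_B (a_mem j) (sub_mem' i j) hu

theorem B_v_a {i j : GolayPt} (hij : i ≠ j) : B K (v i j) (a i) = K (a i) := by
  obtain ⟨c, hc, hi, hj⟩ := exists_word hij
  have h1 := hK.hsign c hc (v i j) (v_mem i j)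
  have e : (fun p => if p ∈ c then -(v i j) p else (v i j) p) = v i j + - a i := by
    funext p
    simp only [v, a, e4, Pi.add_apply, Pi.neg_apply]
    by_cases hp : p = i
    · subst hp
      simp [hi, hij]
    · by_cases hq : p = j
      · subst hq
        simp [hj, hp]
      · simp [hp, hq]
  rw [e, K_add K, hK.K_neg (a_mem i), B_comm (v i j) (- a i), hK.B_neg (a_mem i) (v_mem i j), B_comm] at h1
  generalize K (v i j) = s at h1
  generalize K (a i) = t at h1 ⊢
  generalize B K (v i j) (a i) = u at h1 ⊢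
  revert s t u
  decide

theorem K_a (i : GolayPt) : K (a i) = 0 := by
  -- two further points
  obtain ⟨j, hj⟩ := exists_fresh [i] (by simp)
  obtain ⟨k, hk⟩ := exists_fresh [i, j] (by simp)
  simp only [List.mem_cons, List.not_mem_nil, or_false, not_or] at hj hk
  have hj' : j ≠ i := hj
  -- v k i + v i j = v k j + a i
  have e : v k i + v i j = v k j + a i := by
    simp only [v, a]
    abel
  have h1 : B K (v k i + v i j) (a i) = B K (v k j + a i) (a i) := by rw [e]
  rw [hK.hadd _ _ _ (v_mem _ _) (v_mem _ _) (a_mem _), hK.hadd _ _ _ (v_mem _ _) (a_mem _) (a_mem _),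
    hK.B_self (a_mem _), v_comm k i, hK.B_v_a (Ne.symm hk.1), hK.B_v_a (Ne.symm hj'), add_zero,
    zmod2_double, B_comm (v k j), ← hK.B_a_eq k i (v_mem _ _), B_comm (a k), hK.B_v_a hk.2,
    hK.K_a_eq k i] at h1
  exact h1.symm

theorem B_v_a' {i j : GolayPt} (hij : i ≠ j) (l : GolayPt) : B K (v i j) (a l) = 0 := by
  rw [B_comm, hK.B_a_eq l i (v_mem _ _), B_comm, hK.B_v_a hij, hK.K_a]

theorem B_a_a (i j : GolayPt) : B K (a i) (a j) = 0 := by
  rw [hK.B_a_eq i j (a_mem _), hK.B_self (a_mem _)]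

/-! ### Invariance under `M24` -/

theorem K_v_perm {k : Equiv.Perm GolayPt} (hk : k ∈ M24) (i j : GolayPt) :
    K (v (k i) (k j)) = K (v i j) := by
  rw [← v_comp (k := k) i j]
  exact (hK.hperm k hk _ (v_mem _ _)).symm

theorem B_v_perm {k : Equiv.Perm GolayPt} (hk : k ∈ M24) (i j l m : GolayPt) :
    B K (v (k i) (k j)) (v (k l) (k m)) = B K (v i j) (v l m) := by
  unfold B
  rw [hK.K_v_perm hk, hK.K_v_perm hk]
  congr 2
  have e : v i j + v l m = fun p => (v (k i) (k j) + v (k l) (k m)) (k p) := by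
    funext p
    simp only [Pi.add_apply]
    rw [← v_comp (k := k) i j, ← v_comp (k := k) l m]
  rw [e]
  exact (hK.hperm k hk _ (add_mem (v_mem _ _) (v_mem _ _))).symm

theorem K_v_eq {p q : GolayPt} (h : p ≠ q) : K (v p q) = K (v (pt 23) (pt 0)) := by
  obtain ⟨t, ht⟩ := exists_fresh [p, q] (by simp)
  simp only [List.mem_cons, List.not_mem_nil, or_false, not_or] at ht
  obtain ⟨k, hk, e1, e2, -⟩ := exists_map3 h (Ne.symm ht.1) (Ne.symm ht.2)
  rw [← hK.K_v_perm hk p q, e1, e2]

theorem B3_eq {p q r : GolayPt} (h1 : p ≠ q) (h2 : p ≠ r) (h4 : q ≠ r) :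
    B K (v p q) (v q r) = B K (v (pt 23) (pt 0)) (v (pt 0) (pt 1)) := by
  obtain ⟨k, hk, e1, e2, e3⟩ := exists_map3 h1 h2 h4
  rw [← hK.B_v_perm hk p q q r, e1, e2, e3]

theorem B4_eq {p q r s : GolayPt} (h1 : p ≠ q) (h2 : p ≠ r) (h3 : p ≠ s) (h4 : q ≠ r)
    (h5 : q ≠ s) (h6 : r ≠ s) :
    B K (v p q) (v r s) = B K (v (pt 23) (pt 0)) (v (pt 1) (pt 2)) := by
  obtain ⟨k, hk, e1, e2, e3, e4⟩ := exists_map4 h1 h2 h3 h4 h5 h6
  rw [← hK.B_v_perm hk p q r s, e1, e2, e3, e4]

/-! ### The relations -/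

theorem b3_eq_c2 : B K (v (pt 23) (pt 0)) (v (pt 0) (pt 1)) = K (v (pt 23) (pt 0)) := by
  have h1 : (pt 23 : GolayPt) ≠ pt 0 := by decide +kernel
  have h2 : (pt 23 : GolayPt) ≠ pt 1 := by decide +kernel
  have h3 : (pt 0 : GolayPt) ≠ pt 1 := by decide +kernel
  have e : v (pt 23) (pt 0) + v (pt 0) (pt 1) = v (pt 23) (pt 1) + a (pt 0) := by
    simp only [v, a]
    abel
  have h := congrArg K e
  rw [K_add K, K_add K, hK.K_a, hK.K_v_eq h2, hK.K_v_eq h3, B_comm (v (pt 23) (pt 1)), B_comm (a _),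
    hK.B_v_a' h2, add_zero, add_zero] at h
  -- left side
  generalize K (v (pt 23) (pt 0)) = s at h ⊢
  generalize B K (v (pt 23) (pt 0)) (v (pt 0) (pt 1)) = t at h ⊢
  revert s t
  decide

theorem d_eq_zero : B K (v (pt 23) (pt 0)) (v (pt 1) (pt 2)) = 0 := by
  have h : B K (v (pt 23) (pt 2) + v (pt 4) (pt 6)) (v (pt 7) (pt 8)) = B K ((v (pt 7) (pt 8) + v (pt 12) (pt 13)) +
      ((fun t => 2 * Leech.ind (enc.finOf 8401364) t - 4 * Leech.ind (enc.finOf 12672) t) +
        (fun t => 2 * Leech.ind (enc.finOf 8401364) t - 4 * Leech.ind (enc.finOf 12672) t))) (v (pt 7) (pt 8)) := by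
    rw [← octad_rel]
  rw [hK.cong_B (add_mem (v_mem _ _) (v_mem _ _)) octad_mem (v_mem _ _),
    hK.hadd _ _ _ (v_mem _ _) (v_mem _ _) (v_mem _ _),
    hK.hadd _ _ _ (v_mem _ _) (v_mem _ _) (v_mem _ _),
    hK.B_self (v_mem _ _)] at h
  have e1 : B K (v (pt 23) (pt 2)) (v (pt 7) (pt 8)) = B K (v (pt 23) (pt 0)) (v (pt 1) (pt 2)) :=
    hK.B4_eq (by decide +kernel) (by decide +kernel) (by decide +kernel) (by decide +kernel) (by decide +kernel) (by decide +kernel)
  have e2 : B K (v (pt 4) (pt 6)) (v (pt 7) (pt 8)) = B K (v (pt 23) (pt 0)) (v (pt 1) (pt 2)) :=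
    hK.B4_eq (by decide +kernel) (by decide +kernel) (by decide +kernel) (by decide +kernel) (by decide +kernel) (by decide +kernel)
  have e3 : B K (v (pt 12) (pt 13)) (v (pt 7) (pt 8)) = B K (v (pt 23) (pt 0)) (v (pt 1) (pt 2)) :=
    hK.B4_eq (by decide +kernel) (by decide +kernel) (by decide +kernel) (by decide +kernel) (by decide +kernel) (by decide +kernel)
  rw [e1, e2, e3, zmod2_double, zero_add] at h
  exact h.symm

theorem b3_eq_zero : B K (v (pt 23) (pt 0)) (v (pt 0) (pt 1)) = 0 := by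
  have hd := hK.d_eq_zero
  have h : B K (v (pt 23) (pt 2) + v (pt 4) (pt 6)) (v (pt 23) (pt 0)) = B K ((v (pt 7) (pt 8) + v (pt 12) (pt 13)) +
      ((fun t => 2 * Leech.ind (enc.finOf 8401364) t - 4 * Leech.ind (enc.finOf 12672) t) +
        (fun t => 2 * Leech.ind (enc.finOf 8401364) t - 4 * Leech.ind (enc.finOf 12672) t))) (v (pt 23) (pt 0)) := by
    rw [← octad_rel]
  rw [hK.cong_B (add_mem (v_mem _ _) (v_mem _ _)) octad_mem (v_mem _ _),
    hK.hadd _ _ _ (v_mem _ _) (v_mem _ _) (v_mem _ _),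
    hK.hadd _ _ _ (v_mem _ _) (v_mem _ _) (v_mem _ _)] at h
  have e1 : B K (v (pt 4) (pt 6)) (v (pt 23) (pt 0)) = B K (v (pt 23) (pt 0)) (v (pt 1) (pt 2)) :=
    hK.B4_eq (by decide +kernel) (by decide +kernel) (by decide +kernel) (by decide +kernel) (by decide +kernel) (by decide +kernel)
  have e2 : B K (v (pt 7) (pt 8)) (v (pt 23) (pt 0)) = B K (v (pt 23) (pt 0)) (v (pt 1) (pt 2)) :=
    hK.B4_eq (by decide +kernel) (by decide +kernel) (by decide +kernel) (by decide +kernel) (by decide +kernel) (by decide +kernel)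
  have e3 : B K (v (pt 12) (pt 13)) (v (pt 23) (pt 0)) = B K (v (pt 23) (pt 0)) (v (pt 1) (pt 2)) :=
    hK.B4_eq (by decide +kernel) (by decide +kernel) (by decide +kernel) (by decide +kernel) (by decide +kernel) (by decide +kernel)
  have e4 : B K (v (pt 23) (pt 2)) (v (pt 23) (pt 0)) = B K (v (pt 23) (pt 0)) (v (pt 0) (pt 1)) := by
    rw [v_comm (pt 23) (pt 2)]
    exact hK.B3_eq (by decide +kernel) (by decide +kernel) (by decide +kernel)
  rw [e1, e2, e3, e4, hd] at h
  simpa using h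

theorem K_v {p q : GolayPt} (h : p ≠ q) : K (v p q) = 0 := by
  rw [hK.K_v_eq h, ← hK.b3_eq_c2, hK.b3_eq_zero]

theorem B_v_v {p q r s : GolayPt} (h1 : p ≠ q) (h2 : r ≠ s) : B K (v p q) (v r s) = 0 := by
  have hb := hK.b3_eq_zero
  have hd := hK.d_eq_zero
  by_cases hpr : p = r
  · subst hpr
    by_cases hqs : q = s
    · subst hqs
      exact hK.B_self (v_mem _ _)
    · rw [v_comm p q, hK.B3_eq (Ne.symm h1) hqs h2, hb]
  by_cases hps : p = s
  · subst hps
    by_cases hqr : q = r
    · subst hqr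
      rw [v_comm q p]
      exact hK.B_self (v_mem _ _)
    · rw [v_comm p q, v_comm r p, hK.B3_eq (Ne.symm h1) hqr (Ne.symm h2), hb]
  by_cases hqr : q = r
  · subst hqr
    rw [hK.B3_eq h1 hps h2, hb]
  by_cases hqs : q = s
  · subst hqs
    rw [v_comm r q, hK.B3_eq h1 hpr (Ne.symm h2), hb]
  rw [hK.B4_eq h1 hpr hps hqr hqs h2, hd]

end IsForm

/-! ### The span -/

/-- The generating set. -/
def Gens : Set V := {x | (∃ p q, p ≠ q ∧ x = v p q) ∨ (∃ p, x = a p) ∨ ∃ w ∈ leechLattice, x = w + w}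

theorem gens_mem {x : V} (hx : x ∈ Gens) : x ∈ leechLattice := by
  rcases hx with ⟨p, q, -, rfl⟩ | ⟨p, rfl⟩ | ⟨w, hw, rfl⟩
  · exact v_mem _ _
  · exact a_mem _
  · exact add_mem hw hw

theorem closure_le : AddSubgroup.closure Gens ≤ leechLattice :=
  (AddSubgroup.closure_le _).2 fun _ hx => gens_mem hx

namespace IsForm

variable (hK : IsForm K)
include hK

theorem B_gens {x y : V} (hx : x ∈ Gens) (hy : y ∈ Gens) : B K x y = 0 := by
  rcases hx with ⟨p, q, hpq, rfl⟩ | ⟨p, rfl⟩ | ⟨w, hw, rfl⟩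
  · rcases hy with ⟨r, s, hrs, rfl⟩ | ⟨r, rfl⟩ | ⟨w, hw, rfl⟩
    · exact hK.B_v_v hpq hrs
    · exact hK.B_v_a' hpq r
    · rw [B_comm]
      exact hK.B_double hw (v_mem _ _)
  · rcases hy with ⟨r, s, hrs, rfl⟩ | ⟨r, rfl⟩ | ⟨w, hw, rfl⟩
    · rw [B_comm]
      exact hK.B_v_a' hrs p
    · exact hK.B_a_a p r
    · rw [B_comm]
      exact hK.B_double hw (a_mem _)
  · exact hK.B_double hw (gens_mem hy)

theorem K_gens {x : V} (hx : x ∈ Gens) : K x = 0 := by
  rcases hx with ⟨p, q, hpq, rfl⟩ | ⟨p, rfl⟩ | ⟨w, hw, rfl⟩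
  · exact hK.K_v hpq
  · exact hK.K_a p
  · exact hK.htwo w hw

theorem B_closure_right {x y : V} (hx : x ∈ Gens) (hy : y ∈ AddSubgroup.closure Gens) : B K x y = 0 := by
  have hx' := gens_mem hx
  induction hy using AddSubgroup.closure_induction with
  | mem y hy => exact hK.B_gens hx hy
  | zero =>
    unfold B
    rw [add_zero, hK.K_zero, add_zero, zmod2_double]
  | add y y' hy hy' h1 h2 =>
    rw [hK.hadd' hx' (closure_le hy) (closure_le hy'), h1, h2, add_zero]
  | neg y hy h =>
    rw [B_comm, hK.B_neg (closure_le hy) hx', B_comm, h]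

theorem B_closure {x y : V} (hx : x ∈ AddSubgroup.closure Gens) (hy : y ∈ AddSubgroup.closure Gens) :
    B K x y = 0 := by
  have hy' := closure_le hy
  induction hx using AddSubgroup.closure_induction with
  | mem x hx => exact hK.B_closure_right hx hy
  | zero =>
    unfold B
    rw [zero_add, hK.K_zero, add_zero, zmod2_double]
  | add x x' hx hx' h1 h2 =>
    rw [hK.hadd _ _ _ (closure_le hx) (closure_le hx') hy', h1, h2, add_zero]
  | neg x hx h =>
    rw [hK.B_neg (closure_le hx) hy', h]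

theorem K_closure {x : V} (hx : x ∈ AddSubgroup.closure Gens) : K x = 0 := by
  induction hx using AddSubgroup.closure_induction with
  | mem x hx => exact hK.K_gens hx
  | zero => exact hK.K_zero
  | add x x' hx hx' h1 h2 =>
    rw [K_add K, h1, h2, hK.B_closure hx hx', add_zero, add_zero]
  | neg x hx h =>
    rw [hK.K_neg (closure_le hx), h]

end IsForm

/-- The decomposition of the vectors with coordinates divisible by four. -/
theorem dec4 {x : V} (h : ∀ i, (4 : ℤ) ∣ x i) (hs : (8 : ℤ) ∣ ∑ i, x i) :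
    x ∈ AddSubgroup.closure Gens := by
  classical
  choose y hy using h
  have hsum : ∑ i ∈ Finset.univ.erase (none : GolayPt), x i = ∑ i, x i - x none := by
    rw [← Finset.add_sum_erase _ _ (Finset.mem_univ (none : GolayPt))]
    ring
  have hsy : ∑ i ∈ Finset.univ.erase (none : GolayPt), x i = 4 * ∑ i ∈ Finset.univ.erase (none : GolayPt), y i := by
    rw [Finset.mul_sum]
    exact Finset.sum_congr rfl fun i _ => hy i
  obtain ⟨t, ht⟩ : ∃ t, x none - ∑ i ∈ Finset.univ.erase (none : GolayPt), x i = 8 * t := by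
    obtain ⟨u, hu⟩ := hs
    refine ⟨u - ∑ i ∈ Finset.univ.erase (none : GolayPt), y i, ?_⟩
    have : x none = ∑ i, x i - ∑ i ∈ Finset.univ.erase (none : GolayPt), x i := by rw [hsum]; ring
    rw [this, hu, hsy]
    ring
  have e : x = ∑ i ∈ Finset.univ.erase (none : GolayPt), y i • v i none + t • a none := by
    funext p
    simp only [Pi.add_apply, Finset.sum_apply, Pi.smul_apply, smul_eq_mul]
    by_cases hp : p = none
    · subst hp
      have h1 : ∀ i ∈ Finset.univ.erase (none : GolayPt), y i * v i none none = x i := by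
        intro i hi
        have hi' : (none : GolayPt) ≠ i := Ne.symm (Finset.ne_of_mem_erase hi)
        simp only [v, e4, Pi.add_apply, hi', if_false, if_true]
        rw [hy i]
        ring
      rw [Finset.sum_congr rfl h1]
      simp only [a, e4, Pi.add_apply, if_true]
      linarith
    · have h1 : ∀ i ∈ Finset.univ.erase (none : GolayPt), y i * v i none p = if i = p then x p else 0 := by
        intro i _
        simp only [v, e4, Pi.add_apply, hp, if_false, add_zero]
        by_cases hip : i = p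
        · subst hip
          simp only [if_true]
          rw [hy i]
          ring
        · rw [if_neg (Ne.symm hip), if_neg hip, mul_zero]
      rw [Finset.sum_congr rfl h1, Finset.sum_ite_eq' _ p]
      simp only [Finset.mem_erase, ne_eq, hp, not_false_eq_true, Finset.mem_univ, and_self, if_true]
      simp only [a, e4, Pi.add_apply, hp, if_false]
      ring
  rw [e]
  have ha : a none ∈ AddSubgroup.closure Gens := AddSubgroup.subset_closure (Or.inr (Or.inl ⟨_, rfl⟩))
  refine add_mem (sum_mem fun i hi => ?_) (zsmul_mem ha t)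
  have hv : v i none ∈ AddSubgroup.closure Gens :=
    AddSubgroup.subset_closure (Or.inl ⟨i, none, Finset.ne_of_mem_erase hi, rfl⟩)
  exact zsmul_mem hv _

/-- `singA` is spanned. -/
theorem singA_le_closure : singA ≤ AddSubgroup.closure Gens := by
  intro x hx
  obtain ⟨h1, h2, h3⟩ := mem_singA.1 hx
  have hB := leech_le_B1' h1
  obtain ⟨m, hm, hs, -⟩ := mem_leechLattice.1 h1
  have hmn : x none % 2 = m % 2 := hm none
  have hs' : (∑ i, x i) % 8 = (4 * m) % 8 := hs
  have hcong : ∀ i, (4 : ℤ) ∣ x i - x none := by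
    intro i
    have := (aw_eq_zero_iff_even hB.1 i).1 (by rw [h2]; rfl)
    omega
  have hm2 : (8 : ℤ) ∣ ∑ i, x i := by
    obtain ⟨d, hd⟩ := h3
    have : m % 2 = 0 := by omega
    omega
  by_cases hd : (4 : ℤ) ∣ x none
  · apply dec4 _ hm2
    intro i
    exact (dvd_sub_left hd).1 (hcong i) |>.trans (dvd_refl _)
  · -- subtract the double of the odd vector
    have hodd : (oddVec + oddVec : V) ∈ Gens := Or.inr (Or.inr ⟨_, oddVec_mem, rfl⟩)
    have hx' : x - (oddVec + oddVec : V) ∈ AddSubgroup.closure Gens := by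
      apply dec4
      · intro i
        have h4 := hcong i
        have h5 : (oddVec + oddVec : V) i % 4 = 2 := by
          simp only [oddVec, Pi.add_apply]
          split_ifs <;> norm_num
        simp only [Pi.sub_apply]
        obtain ⟨d, hd2⟩ := h3
        omega
      · have hsum : ∑ i, oddVec i = 28 := by decide +kernel
        simp only [Pi.sub_apply, Pi.add_apply, Finset.sum_sub_distrib, Finset.sum_add_distrib, hsum]
        omega
    have e : x = x - (oddVec + oddVec : V) + (oddVec + oddVec : V) := by abel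
    rw [e]
    exact add_mem hx' (AddSubgroup.subset_closure hodd)

/-- The form vanishes on `singA`. -/
theorem IsForm.K_singA (hK : IsForm K) {x : V} (hx : x ∈ singA) : K x = 0 :=
  hK.K_closure (singA_le_closure hx)

end Cfsg.Agent.Lib.Leech.Plus
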