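import Cfsg.Agent.Lib.Leech.Plus
import Cfsg.Agent.Lib.Amalgam.Extra2
import Cfsg.Prelude.Def_MonsterType

/-!
# Extraspecial groups with the Leech lattice modulo two as central quotient are of plus type
-/

set_option autoImplicit false

namespace Cfsg.Agent.Lib.Leech.Plus

open Cfsg Cfsg.Spor Cfsg.Agent.Lib.Golay Cfsg.Agent.Lib.M24
open scoped commutatorElement

section val

variable {P : Type*} [Group P]

open Classical in
/-- The square as a value in the field of two elements. -/
noncomputable def val (x : P) : ZMod 2 := if x * x = 1 then 0 else 1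

open Classical in
/-- The commutator as a value in the field of two elements. -/
noncomputable def cm (x y : P) : ZMod 2 := if x * y = y * x then 0 else 1

theorem val_eq_zero {x : P} (h : x * x = 1) : val x = 0 := if_pos h

theorem val_eq_one {x : P} (h : ¬ x * x = 1) : val x = 1 := if_neg h

theorem cm_eq_zero {x y : P} (h : x * y = y * x) : cm x y = 0 := if_pos h

theorem cm_eq_one {x y : P} (h : ¬ x * y = y * x) : cm x y = 1 := if_neg h

/-- The data from an extraspecial group. -/
structure Ex (z₀ : P) : Prop where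
  hz : z₀ ≠ 1
  hzz : z₀ * z₀ = 1
  hcen : ∀ x, x * z₀ = z₀ * x
  hsq : ∀ x : P, x * x = 1 ∨ x * x = z₀
  hcom : ∀ x y : P, x * y = y * x ∨ x * y = y * x * z₀
  hcc : ∀ c : P, (∀ t, t * c = c * t) → c = 1 ∨ c = z₀

variable {z₀ : P} (h : Ex z₀)
include h

theorem Ex.sq_mul {x y w : P} (hw : ∀ t, t * w = w * t) (hyx : y * x = x * y * w) :
    (x * y) * (x * y) = (x * x) * (y * y) * w := by
  calc (x * y) * (x * y) = x * (y * x) * y := by group
    _ = x * (x * y * w) * y := by rw [hyx]
    _ = x * x * y * (w * y) := by group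
    _ = x * x * y * (y * w) := by rw [← hw y]
    _ = _ := by group

theorem Ex.cm_of {x y : P} (hxy : x * y = y * x * z₀) : cm x y = 1 := by
  apply cm_eq_one
  intro h1
  rw [h1] at hxy
  exact h.hz (by simpa using hxy.symm)

theorem Ex.val_of {x : P} (hx : x * x = z₀) : val x = 1 := by
  apply val_eq_one
  rw [hx]
  exact h.hz

theorem Ex.val_mul (x y : P) : val (x * y) = val x + val y + cm x y := by
  have hone : ∀ t : P, t * 1 = 1 * t := by simp
  have hcomb : y * x = x * y ∧ cm x y = 0 ∨ y * x = x * y * z₀ ∧ cm x y = 1 := by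
    rcases h.hcom x y with h1 | h1
    · exact Or.inl ⟨h1.symm, cm_eq_zero h1⟩
    · refine Or.inr ⟨?_, h.cm_of h1⟩
      rw [h1, mul_assoc, h.hzz, mul_one]
  rcases h.hsq x with hx | hx <;> rcases h.hsq y with hy | hy <;> rcases hcomb with ⟨h1, h2⟩ | ⟨h1, h2⟩
  · rw [val_eq_zero hx, val_eq_zero hy, h2, val_eq_zero]
    · decide
    · have := h.sq_mul hone (x := x) (y := y) (by rw [h1, mul_one])
      rw [this, hx, hy]; simp
  · rw [val_eq_zero hx, val_eq_zero hy, h2, h.val_of]
    · decide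
    · have := h.sq_mul h.hcen (x := x) (y := y) h1
      rw [this, hx, hy]; simp
  · rw [val_eq_zero hx, h.val_of hy, h2, h.val_of]
    · decide
    · have := h.sq_mul hone (x := x) (y := y) (by rw [h1, mul_one])
      rw [this, hx, hy]; simp
  · rw [val_eq_zero hx, h.val_of hy, h2, val_eq_zero]
    · decide
    · have := h.sq_mul h.hcen (x := x) (y := y) h1
      rw [this, hx, hy]; simp [h.hzz]
  · rw [h.val_of hx, val_eq_zero hy, h2, h.val_of]
    · decide
    · have := h.sq_mul hone (x := x) (y := y) (by rw [h1, mul_one])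
      rw [this, hx, hy]; simp
  · rw [h.val_of hx, val_eq_zero hy, h2, val_eq_zero]
    · decide
    · have := h.sq_mul h.hcen (x := x) (y := y) h1
      rw [this, hx, hy]; simp [h.hzz]
  · rw [h.val_of hx, h.val_of hy, h2, val_eq_zero]
    · decide
    · have := h.sq_mul hone (x := x) (y := y) (by rw [h1, mul_one])
      rw [this, hx, hy]; simp [h.hzz]
  · rw [h.val_of hx, h.val_of hy, h2, h.val_of]
    · decide
    · have := h.sq_mul h.hcen (x := x) (y := y) h1
      rw [this, hx, hy]; simp [h.hzz]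

theorem Ex.cm_mul (x x' y : P) : cm (x * x') y = cm x y + cm x' y := by
  have key : ∀ t : P, (t * y = y * t ∧ cm t y = 0) ∨ (t * y = y * t * z₀ ∧ cm t y = 1) := by
    intro t
    rcases h.hcom t y with h1 | h1
    · exact Or.inl ⟨h1, cm_eq_zero h1⟩
    · exact Or.inr ⟨h1, h.cm_of h1⟩
  rcases key x with ⟨h1, h2⟩ | ⟨h1, h2⟩ <;> rcases key x' with ⟨h3, h4⟩ | ⟨h3, h4⟩
  · rw [h2, h4, cm_eq_zero]
    · rfl
    · calc x * x' * y = x * (x' * y) := by group
        _ = x * (y * x') := by rw [h3]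
        _ = (x * y) * x' := by group
        _ = y * x * x' := by rw [h1]
        _ = y * (x * x') := by group
  · rw [h2, h4, h.cm_of]
    · rfl
    · calc x * x' * y = x * (x' * y) := by group
        _ = x * (y * x' * z₀) := by rw [h3]
        _ = (x * y) * x' * z₀ := by group
        _ = y * x * x' * z₀ := by rw [h1]
        _ = y * (x * x') * z₀ := by group
  · rw [h2, h4, h.cm_of]
    · rfl
    · calc x * x' * y = x * (x' * y) := by group
        _ = x * (y * x') := by rw [h3]
        _ = (x * y) * x' := by group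
        _ = y * x * z₀ * x' := by rw [h1]
        _ = y * x * (z₀ * x') := by group
        _ = y * x * (x' * z₀) := by rw [h.hcen x']
        _ = y * (x * x') * z₀ := by group
  · rw [h2, h4, cm_eq_zero]
    · decide
    · calc x * x' * y = x * (x' * y) := by group
        _ = x * (y * x' * z₀) := by rw [h3]
        _ = (x * y) * x' * z₀ := by group
        _ = y * x * z₀ * x' * z₀ := by rw [h1]
        _ = y * x * (z₀ * x') * z₀ := by group
        _ = y * x * (x' * z₀) * z₀ := by rw [h.hcen x']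
        _ = y * x * x' * (z₀ * z₀) := by group
        _ = y * (x * x') := by rw [h.hzz]; group

theorem Ex.cm_self (x : P) : cm x x = 0 := cm_eq_zero rfl

/-- Central elements do not change the square. -/
theorem Ex.val_central {x c : P} (hc : ∀ t, t * c = c * t) : val (x * c) = val x := by
  rw [h.val_mul, cm_eq_zero (hc x)]
  have h0 : val c = 0 := by
    apply val_eq_zero
    rcases h.hcc c hc with h1 | h1
    · rw [h1, mul_one]
    · rw [h1, h.hzz]
  rw [h0]
  simp

theorem Ex.cm_central {x c y : P} (hc : ∀ t, t * c = c * t) : cm (x * c) y = cm x y := by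
  rw [h.cm_mul, cm_eq_zero (hc y).symm, add_zero]

end val

/-- The data of an extraspecial group. -/
theorem ex_of_extraspecial {E : Type*} [Group E] [Finite E] (hE : IsExtraspecial 2 E) :
    ∃ z₀ : E, Ex z₀ := by
  obtain ⟨z, hz⟩ := Cfsg.Agent.Lib.Amalgam.exists_extraFacts hE
  have hcen : ∀ x, x * z = z * x := by
    intro x
    have h1 : z ∈ (⊤ : Subgroup E) ⊓ Subgroup.centralizer ((⊤ : Subgroup E) : Set E) := by
      rw [hz.hcent]
      exact Subgroup.mem_zpowers z
    exact (Subgroup.mem_centralizer_iff.mp h1.2 x (Subgroup.mem_top x))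
  refine ⟨z, ?_, ?_, hcen, ?_, ?_, ?_⟩
  · intro h
    have := hz.hz
    rw [h] at this
    simp at this
  · rw [← pow_two, ← hz.hz]
    exact pow_orderOf_eq_one z
  · intro x
    exact Cfsg.Agent.Lib.Amalgam.ExtraCount.sq_eq hz x
  · intro x y
    rcases hz.eq_one_or (hz.hcom x (Subgroup.mem_top _) y (Subgroup.mem_top _)) with h1 | h1
    · left
      exact commutatorElement_eq_one_iff_mul_comm.1 h1
    · right
      have hc : x * y = ⁅x, y⁆ * (y * x) := by
        rw [commutatorElement_def]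
        group
      rw [hc, h1, hcen]
  · intro c hc
    apply hz.eq_one_or
    rw [← hz.hcent]
    refine ⟨Subgroup.mem_top _, Subgroup.mem_centralizer_iff.mpr fun g _ => ?_⟩
    exact (hc g)

section main

variable {P : Type*} [Group P] [Finite P]

open Cfsg.Agent.Lib.KnownSimple.Leech in
/-- The sign change on a word as an element of the automorphism group. -/
def signFun {c : Finset GolayPt} (hc : c ∈ Leech.CS) (x : LL) : LL :=
  ⟨fun i => if i ∈ c then -x.1 i else x.1 i, by
    rw [Leech.mem_leechLattice]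
    exact Leech.sign_mem hc (Leech.mem_leechLattice.1 x.2)⟩

open Cfsg.Agent.Lib.KnownSimple.Leech in
theorem signFun_inv {c : Finset GolayPt} (hc : c ∈ Leech.CS) : Function.Involutive (signFun hc) := by
  intro x
  apply Subtype.ext
  funext i
  simp only [signFun]
  split_ifs <;> simp

open Cfsg.Agent.Lib.KnownSimple.Leech in
theorem signFun_mem {c : Finset GolayPt} (hc : c ∈ Leech.CS) : (signFun_inv hc).toPerm ∈ Co0 := by
  rw [mem_Co0]
  constructor
  · intro x y
    apply Subtype.ext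
    funext i
    show (if i ∈ c then -(x.1 + y.1) i else (x.1 + y.1) i) = (if i ∈ c then -x.1 i else x.1 i) + (if i ∈ c then -y.1 i else y.1 i)
    simp only [Pi.add_apply]
    split_ifs <;> ring
  · intro x
    show sqNorm (fun i => if i ∈ c then -x.1 i else x.1 i) = sqNorm x.1
    unfold sqNorm
    apply Finset.sum_congr rfl
    intro i _
    show (if i ∈ c then -x.1 i else x.1 i) ^ 2 = x.1 i ^ 2
    split_ifs <;> ring

open Cfsg.Agent.Lib.KnownSimple.Leech in
/-- The main statement, abstractly. -/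
theorem plus_of_form (hE : IsExtraspecial 2 P) (hcard : Nat.card P = 2 ^ 25)
    (ψ : LL → P ⧸ Subgroup.center P) (hadd : ∀ v w : LL, ψ (v + w) = ψ v * ψ w)
    (hsurj : Function.Surjective ψ) (hker : ∀ v : LL, ψ v = 1 ↔ ∃ w : LL, v = w + w)
    (hinv : ∀ g : Co0, ∃ α : P → P, (∀ x, α x * α x = 1 ↔ x * x = 1) ∧
      ∀ (v : LL) (q : P), ψ v = QuotientGroup.mk q → ψ (g • v) = QuotientGroup.mk (α q)) :
    ∃ E : Subgroup P, IsElementaryAbelian 2 E ∧ Nat.card E = 2 ^ 13 := by
  classical
  obtain ⟨z₀, hz⟩ := ex_of_extraspecial hE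
  have hout : ∀ t : P ⧸ Subgroup.center P, ∃ q : P, (QuotientGroup.mk q : P ⧸ Subgroup.center P) = t :=
    QuotientGroup.mk_surjective
  choose lift hlift using hout
  -- the form
  let κ : LL → ZMod 2 := fun v => val (lift (ψ v))
  let K : V → ZMod 2 := fun x => if h : x ∈ leechLattice then κ ⟨x, h⟩ else 0
  have hKv : ∀ (v : LL), K v.1 = κ v := fun v => by
    simp only [K, v.2, dif_pos]
  have hval : ∀ (v : LL) (q : P), ψ v = QuotientGroup.mk q → κ v = val q := by
    intro v q h
    have h1 : (QuotientGroup.mk (lift (ψ v)) : P ⧸ Subgroup.center P) = QuotientGroup.mk q := by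
      rw [hlift, h]
    have h2 := QuotientGroup.eq.1 h1
    have h3 : q = lift (ψ v) * ((lift (ψ v))⁻¹ * q) := by group
    rw [h3]
    exact (hz.val_central fun t => Subgroup.mem_center_iff.1 h2 t).symm
  have hB : ∀ (v w : LL) (q q' : P), ψ v = QuotientGroup.mk q → ψ w = QuotientGroup.mk q' →
      B K v.1 w.1 = cm q q' := by
    intro v w q q' h1 h2
    have h3 : ψ (v + w) = QuotientGroup.mk (q * q') := by
      rw [hadd, h1, h2]
      rfl
    have e : v.1 + w.1 = (v + w : LL).1 := rfl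
    unfold B
    rw [e, hKv, hKv, hKv, hval _ _ h3, hval _ _ h1, hval _ _ h2, hz.val_mul]
    generalize val q = s
    generalize val q' = t
    generalize cm q q' = u
    revert s t u
    decide
  have hform : IsForm K := by
    refine ⟨?_, ?_, ?_, ?_⟩
    · intro x y u hx hy hu
      have h1 := hB ⟨x, hx⟩ ⟨u, hu⟩ _ _ (hlift _).symm (hlift _).symm
      have h2 := hB ⟨y, hy⟩ ⟨u, hu⟩ _ _ (hlift _).symm (hlift _).symm
      have h3 : ψ ⟨x, hx⟩ * ψ ⟨y, hy⟩ = QuotientGroup.mk (lift (ψ ⟨x, hx⟩) * lift (ψ ⟨y, hy⟩)) := by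
        rw [QuotientGroup.mk_mul, hlift, hlift]
      have h4 := hB (⟨x, hx⟩ + ⟨y, hy⟩) ⟨u, hu⟩ _ _ ((hadd _ _).trans h3) (hlift _).symm
      have e : x + y = ((⟨x, hx⟩ + ⟨y, hy⟩ : LL)).1 := rfl
      rw [e, h4, h1, h2, hz.cm_mul]
    · intro x hx
      have h3 : ψ ⟨x, hx⟩ * ψ ⟨x, hx⟩ = QuotientGroup.mk (lift (ψ ⟨x, hx⟩) * lift (ψ ⟨x, hx⟩)) := by
        rw [QuotientGroup.mk_mul, hlift]
      have e : x + x = ((⟨x, hx⟩ + ⟨x, hx⟩ : LL)).1 := rfl
      rw [e, hKv, hval _ _ ((hadd _ _).trans h3), hz.val_mul, hz.cm_self, zmod2_double, add_zero]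
    · intro c hc x hx
      obtain ⟨α, hα, hα2⟩ := hinv ⟨(signFun_inv hc).toPerm, signFun_mem hc⟩
      have h1 := hα2 ⟨x, hx⟩ _ (hlift _).symm
      have e : (fun i => if i ∈ c then -x i else x i) = (signFun hc ⟨x, hx⟩).1 := rfl
      have h2 : (⟨(signFun_inv hc).toPerm, signFun_mem hc⟩ : Co0) • (⟨x, hx⟩ : LL) = signFun hc ⟨x, hx⟩ := rfl
      rw [h2] at h1
      have hKx : K x = κ ⟨x, hx⟩ := hKv ⟨x, hx⟩
      rw [e, hKv, hval _ _ h1, hKx]
      simp only [κ, val, hα]
    · intro σ hσ x hx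
      obtain ⟨α, hα, hα2⟩ := hinv ⟨phi ⟨σ⁻¹, M24.inv_mem hσ⟩, phi_mem _⟩
      have h1 := hα2 ⟨x, hx⟩ _ (hlift _).symm
      have e : (fun i => x (σ i)) = ((⟨phi ⟨σ⁻¹, M24.inv_mem hσ⟩, phi_mem _⟩ : Co0) • (⟨x, hx⟩ : LL)).1 := rfl
      have hKx : K x = κ ⟨x, hx⟩ := hKv ⟨x, hx⟩
      rw [e, hKv, hval _ _ h1, hKx]
      simp only [κ, val, hα]
  -- the subgroup
  let F : Multiplicative LL →* (P ⧸ Subgroup.center P) := MonoidHom.mk' (fun v => ψ v.toAdd) (fun a b => hadd _ _)
  have hF : Function.Surjective F := fun t => by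
    obtain ⟨v, hv⟩ := hsurj t
    exact ⟨Multiplicative.ofAdd v, hv⟩
  let A : Subgroup (Multiplicative LL) := (AddMonoidHom.toMultiplicative phiA).ker
  have hA : A.index = 2 ^ 12 := by
    rw [Subgroup.index_ker, MonoidHom.range_eq_top.2 (fun y => by
      obtain ⟨x, hx⟩ := phiA_surjective y.toAdd
      exact ⟨Multiplicative.ofAdd x, hx⟩)]
    rw [Nat.card_congr Subgroup.topEquiv.toEquiv, Nat.card_congr (Multiplicative.toAdd (α := C0 × ZMod 2)), Nat.card_prod, card_C0]
    simp
  have hker' : F.ker ≤ A := by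
    intro x hx
    obtain ⟨w, hw⟩ := (hker x.toAdd).1 hx
    have h1 : (x.toAdd).1 = (2 : ℤ) • w.1 := by
      rw [hw]
      show w.1 + w.1 = _
      rw [two_zsmul]
    have h2 : (x.toAdd).1 ∈ singA := by
      rw [h1]
      exact two_smul_mem_singA w.2
    obtain ⟨h3, h4, h5⟩ := mem_singA.1 h2
    exact mem_ker_phiA_iff.2 ⟨h4, h5⟩
  let E : Subgroup P := (A.map F).comap (QuotientGroup.mk' (Subgroup.center P))
  have hEi : E.index = 2 ^ 12 := by
    rw [Subgroup.index_comap_of_surjective _ (QuotientGroup.mk'_surjective _), Subgroup.index_map,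
      sup_of_le_left hker', MonoidHom.range_eq_top.2 hF, Subgroup.index_top, mul_one, hA]
  have hEc : Nat.card E = 2 ^ 13 := by
    have := Subgroup.card_mul_index E
    rw [hEi, hcard] at this
    have h2 : (2 : ℕ) ^ 25 = 2 ^ 13 * 2 ^ 12 := by norm_num
    rw [h2] at this
    exact Nat.eq_of_mul_eq_mul_right (by positivity) this
  have hsq : ∀ x ∈ E, x * x = 1 := by
    intro x hx
    obtain ⟨y, hy, hy2⟩ := hx
    have h1 : ψ y.toAdd = QuotientGroup.mk x := hy2
    have h2 : (y.toAdd).1 ∈ singA := by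
      exact mem_singA.2 ⟨(y.toAdd).2, mem_ker_phiA_iff.1 hy⟩
    have h3 := hform.K_singA h2
    rw [hKv, hval _ _ h1] at h3
    by_contra hcon
    rw [val_eq_one hcon] at h3
    exact absurd h3 (by decide)
  refine ⟨E, ⟨⟨⟨fun a b => ?_⟩⟩, fun a ha => ?_⟩, hEc⟩
  · apply Subtype.ext
    have h1 := hsq a.1 a.2
    have h2 := hsq b.1 b.2
    have h3 := hsq (a.1 * b.1) (mul_mem a.2 b.2)
    show a.1 * b.1 = b.1 * a.1
    have h4 : (a.1 * b.1) * (b.1 * a.1) = 1 := by
      rw [show (a.1 * b.1) * (b.1 * a.1) = a.1 * (b.1 * b.1) * a.1 by group, h2, mul_one, h1]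
    calc a.1 * b.1 = (a.1 * b.1) * ((a.1 * b.1) * (b.1 * a.1)) := by rw [h4, mul_one]
      _ = ((a.1 * b.1) * (a.1 * b.1)) * (b.1 * a.1) := by group
      _ = b.1 * a.1 := by rw [h3, one_mul]
  · rw [pow_two]
    exact hsq a ha

end main

end Cfsg.Agent.Lib.Leech.Plus
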